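import Cfsg.Agent.H319.VClass
import Cfsg.Agent.S0144
import Cfsg.Agent.Lib.Cores
import Cfsg.Prelude.Def_CaseTheorems

/-!
# S3237, reduction, first part (helper319)

* `inverts`: an involution acting without fixed points inverts;
* `Conf.card_H`, `Conf.solvable_H`: `|C(z)| = 768`;
* `Conf.core_comm`: the odd core is abelian;
* `Conf.solvable_of_core`: if the odd core is not trivial, `G` is solvable.
-/

set_option autoImplicit false

open Subgroup Cfsg.Agent.Co2Type.Quad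

namespace Cfsg.Agent.H319

variable {G : Type*} [Group G] {Q : Subgroup G} {z : G} {π : ↥(centralizer ({z} : Set G)) →* S4}

/-- an element normalising `N` with square one and without nontrivial fixed points in `N` inverts `N`;
moreover every element of `N` is a square -/
theorem inverts [Finite G] {z : G} {N : Subgroup G} (hz : z * z = 1) (hN : ∀ x ∈ N, z * x * z⁻¹ ∈ N)
    (hf : ∀ x ∈ N, x * z = z * x → x = 1) :
    (∀ x ∈ N, z * x * z⁻¹ = x⁻¹) ∧ ∀ x ∈ N, ∃ y ∈ N, y * y = x := by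
  let f : N → N := fun x => ⟨(x : G)⁻¹ * (z * x * z⁻¹), N.mul_mem (N.inv_mem x.2) (hN x x.2)⟩
  have hinj : Function.Injective f := by
    intro x y hxy
    have h1 : (x : G)⁻¹ * (z * x * z⁻¹) = (y : G)⁻¹ * (z * y * z⁻¹) := congrArg Subtype.val hxy
    have h2 : (y : G) * (x : G)⁻¹ * z = z * ((y : G) * (x : G)⁻¹) := by
      calc (y : G) * (x : G)⁻¹ * z = (y : G) * ((x : G)⁻¹ * (z * x * z⁻¹)) * z * (x : G)⁻¹ := by group
        _ = (y : G) * ((y : G)⁻¹ * (z * y * z⁻¹)) * z * (x : G)⁻¹ := by rw [h1]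
        _ = z * ((y : G) * (x : G)⁻¹) := by group
    have h3 := hf _ (N.mul_mem y.2 (N.inv_mem x.2)) h2
    exact Subtype.ext (mul_inv_eq_one.1 h3).symm
  have hsurj : Function.Surjective f := Finite.surjective_of_injective hinj
  have hzi : z⁻¹ = z := inv_eq_of_mul_eq_one_left hz
  have hinv : ∀ x ∈ N, z * x * z⁻¹ = x⁻¹ := by
    intro x hx
    obtain ⟨y, hy⟩ := hsurj ⟨x, hx⟩
    have h1 : (y : G)⁻¹ * (z * y * z⁻¹) = x := congrArg Subtype.val hy
    rw [← h1, hzi]
    calc z * ((y : G)⁻¹ * (z * y * z)) * z = z * (y : G)⁻¹ * z * y * (z * z) := by group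
      _ = ((y : G)⁻¹ * (z⁻¹ * y * z⁻¹))⁻¹ := by rw [hz]; group
      _ = ((y : G)⁻¹ * (z * y * z))⁻¹ := by rw [hzi]
  refine ⟨hinv, fun x hx => ?_⟩
  obtain ⟨y, hy⟩ := hsurj ⟨x, hx⟩
  have h1 : (y : G)⁻¹ * (z * y * z⁻¹) = x := congrArg Subtype.val hy
  refine ⟨(y : G)⁻¹, N.inv_mem y.2, ?_⟩
  rw [← h1, hinv y y.2]

theorem comm_of_inverts {z : G} {N : Subgroup G} (h : ∀ x ∈ N, z * x * z⁻¹ = x⁻¹) :
    ∀ x ∈ N, ∀ y ∈ N, x * y = y * x := by
  intro x hx y hy
  have h1 := h (x * y) (N.mul_mem hx hy)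
  have h2 : z * (x * y) * z⁻¹ = (z * x * z⁻¹) * (z * y * z⁻¹) := by group
  rw [h2, h x hx, h y hy] at h1
  have h3 : (x⁻¹ * y⁻¹)⁻¹ = ((x * y)⁻¹)⁻¹ := by rw [h1]
  rw [mul_inv_rev, inv_inv, inv_inv, inv_inv] at h3
  exact h3.symm

theorem Conf.zz (C : Conf Q z π) : z * z = 1 := C.large.z_sq

theorem Conf.z_inv (C : Conf Q z π) : z⁻¹ = z := inv_eq_of_mul_eq_one_left C.zz

theorem nh_inf {N : Subgroup G} (hN : N.Normal) (z : G) : NH z (N ⊓ centralizer ({z} : Set G)) := by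
  refine ⟨fun n hn => mem_centralizer_singleton_iff.1 hn.2, ?_⟩
  intro c hc n hn
  have h1 : c ∈ centralizer ({z} : Set G) := mem_centralizer_singleton_iff.2 hc
  exact ⟨hN.conj_mem n hn.1 c,
    (centralizer ({z} : Set G)).mul_mem ((centralizer ({z} : Set G)).mul_mem h1 hn.2)
      ((centralizer ({z} : Set G)).inv_mem h1)⟩

/-- `z` inverts the normal subgroups not containing it -/
theorem Conf.inverts_of_normal [Finite G] (C : Conf Q z π) {N : Subgroup G} (hN : N.Normal) (hz : z ∉ N) :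
    (∀ x ∈ N, z * x * z⁻¹ = x⁻¹) ∧ ∀ x ∈ N, ∃ y ∈ N, y * y = x := by
  refine inverts C.zz (fun x hx => hN.conj_mem x hx z) ?_
  intro x hx hxz
  by_contra hne
  have h1 : N ⊓ centralizer ({z} : Set G) ≠ ⊥ := by
    intro hb
    have : x ∈ N ⊓ centralizer ({z} : Set G) := ⟨hx, mem_centralizer_singleton_iff.2 hxz⟩
    rw [hb, mem_bot] at this
    exact hne this
  exact hz (z_mem C.large (nh_inf hN z) h1).1

theorem Conf.card_H [Finite G] (C : Conf Q z π) : Nat.card ↥(centralizer ({z} : Set G)) = 768 := by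
  have h1 : Nat.card π.ker = 32 := by
    rw [← C.card]
    refine Nat.card_congr ⟨fun c => ⟨(c : ↥(centralizer ({z} : Set G))), (C.ker _).1 c.2⟩,
      fun q => ⟨⟨q, mem_centralizer_singleton_iff.2 (C.large.comm_z q q.2)⟩, (C.ker _).2 q.2⟩, ?_, ?_⟩
    · intro c; rfl
    · intro q; rfl
  have h2 := Subgroup.card_eq_card_quotient_mul_card_subgroup π.ker
  rw [Nat.card_congr (QuotientGroup.quotientKerEquivOfSurjective π C.surj).toEquiv, card_S4, h1] at h2
  exact h2

theorem Conf.solvable_H [Finite G] (C : Conf Q z π) : Group.IsSolvable ↥(centralizer ({z} : Set G)) :=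
  Cfsg.Agent.S0144.result 2 3 8 1 Nat.prime_two Nat.prime_three (by rw [C.card_H]; norm_num)

theorem Conf.not_mem_odd [Finite G] (C : Conf Q z π) {N : Subgroup G} (ho : Odd (Nat.card N)) : z ∉ N := by
  intro hz
  have h1 : orderOf (⟨z, hz⟩ : N) ∣ Nat.card N := orderOf_dvd_natCard _
  have h2 : orderOf (⟨z, hz⟩ : N) = 2 := by
    rw [orderOf_mk]
    exact orderOf_eq_prime (by rw [pow_two]; exact C.zz) C.large.z_ne
  rw [h2] at h1
  exact Nat.not_even_iff_odd.2 ho (even_iff_two_dvd.2 h1)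

theorem odd_core [Finite G] : Odd (Nat.card (Cfsg.oddCore G)) :=
  (Nat.coprime_two_right.1 (Cfsg.Agent.Lib.Cores.pPrimeCore_coprime (G := G) 2))

theorem core_normal : (Cfsg.oddCore G).Normal := Cfsg.Agent.Lib.Cores.pPrimeCore_normal 2

theorem Conf.core_inverts [Finite G] (C : Conf Q z π) : ∀ x ∈ Cfsg.oddCore G, z * x * z⁻¹ = x⁻¹ :=
  (C.inverts_of_normal core_normal (C.not_mem_odd odd_core)).1

/-- the odd core is abelian -/
theorem Conf.core_comm [Finite G] (C : Conf Q z π) : IsMulCommutative ↥(Cfsg.oddCore G) :=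
  ⟨⟨fun a b => Subtype.ext (comm_of_inverts C.core_inverts a a.2 b b.2)⟩⟩

/-- a normal subgroup `N` inverted by `z` with `g z g⁻¹ z⁻¹ ∈ N` for all `g` : `G = N C(z)` is solvable -/
theorem Conf.solvable_of_inverted [Finite G] (C : Conf Q z π) {N : Subgroup G} (hN : N.Normal) (hz : z ∉ N)
    (hc : ∀ g : G, g * z * g⁻¹ * z⁻¹ ∈ N) : Group.IsSolvable G := by
  obtain ⟨hinv, hsq⟩ := C.inverts_of_normal hN hz
  have hNs : Group.IsSolvable N :=
    Group.isSolvable_of_comm (fun a b => Subtype.ext (comm_of_inverts hinv a a.2 b b.2))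
  have hH := C.solvable_H
  -- `C(z) → G / N` is onto
  let f : ↥(centralizer ({z} : Set G)) →* G ⧸ N := (QuotientGroup.mk' N).comp (centralizer ({z} : Set G)).subtype
  have hf : Function.Surjective f := by
    intro y
    induction y using QuotientGroup.induction_on with
    | H g =>
      obtain ⟨k, hk, hkk⟩ := hsq _ (hc g)
      have h1 : z * k * z⁻¹ = k⁻¹ := hinv k hk
      have h2 : k * z * k⁻¹ = g * z * g⁻¹ := by
        have h3 : z * k⁻¹ = k * z := by
          rw [← h1]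
          calc z * (z * k * z⁻¹) = z * z * k * z⁻¹ := by group
            _ = k * z := by rw [C.zz, C.z_inv, one_mul]
        calc k * z * k⁻¹ = k * (z * k⁻¹) := by group
          _ = (k * k) * z := by rw [h3, mul_assoc]
          _ = g * z * g⁻¹ := by rw [hkk]; group
      have h4 : k⁻¹ * g * z = z * (k⁻¹ * g) := by
        calc k⁻¹ * g * z = k⁻¹ * (g * z * g⁻¹) * g := by group
          _ = k⁻¹ * (k * z * k⁻¹) * g := by rw [h2]
          _ = z * (k⁻¹ * g) := by group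
      refine ⟨⟨k⁻¹ * g, mem_centralizer_singleton_iff.2 h4⟩, ?_⟩
      show (QuotientGroup.mk (k⁻¹ * g) : G ⧸ N) = QuotientGroup.mk g
      rw [QuotientGroup.eq]
      have h5 : (k⁻¹ * g)⁻¹ * g = g⁻¹ * k * g⁻¹⁻¹ := by group
      rw [h5]
      exact hN.conj_mem k hk g⁻¹
  have hq : Group.IsSolvable (G ⧸ N) := Group.isSolvable_of_surjective hf
  exact Group.isSolvable_of_ker_le_range N.subtype (QuotientGroup.mk' N) (by
    rw [QuotientGroup.ker_mk', Subgroup.range_subtype])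

/-- **the odd core is trivial unless `G` is solvable** -/
theorem Conf.solvable_of_core [Finite G] (C : Conf Q z π) (hO : Cfsg.oddCore G ≠ ⊥) : Group.IsSolvable G := by
  have hinv := C.core_inverts
  have hn : (Cfsg.oddCore G).Normal := core_normal
  have hcn : (centralizer ((Cfsg.oddCore G : Subgroup G) : Set G)).Normal := inferInstance
  refine C.solvable_of_inverted hcn ?_ ?_
  · intro hz
    apply hO
    rw [eq_bot_iff]
    intro o ho
    have h1 := hinv o ho
    have h2 : o * z = z * o := mem_centralizer_iff.1 hz o ho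
    have h3 : o = o⁻¹ := by
      rw [← h1, ← h2]; group
    have h4 : o * o = 1 := by
      nth_rewrite 2 [h3]; exact mul_inv_cancel o
    rw [mem_bot]
    by_contra hne
    have h5 : orderOf o = 2 := orderOf_eq_prime (by rw [pow_two]; exact h4) hne
    have h6 : orderOf (⟨o, ho⟩ : Cfsg.oddCore G) ∣ Nat.card (Cfsg.oddCore G) := orderOf_dvd_natCard _
    rw [orderOf_mk, h5] at h6
    exact Nat.not_even_iff_odd.2 odd_core (even_iff_two_dvd.2 h6)
  · intro g
    rw [mem_centralizer_iff]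
    intro o ho
    have key : ∀ o ∈ Cfsg.oddCore G, (g * z * g⁻¹) * o * (g * z * g⁻¹)⁻¹ = o⁻¹ := by
      intro o ho
      have h1 := hinv _ (hn.conj_mem o ho g⁻¹)
      calc (g * z * g⁻¹) * o * (g * z * g⁻¹)⁻¹ = g * (z * (g⁻¹ * o * g⁻¹⁻¹) * z⁻¹) * g⁻¹ := by group
        _ = g * (g⁻¹ * o * g⁻¹⁻¹)⁻¹ * g⁻¹ := by rw [h1]
        _ = o⁻¹ := by group
    have h2 : z⁻¹ * o * z⁻¹⁻¹ = o⁻¹ := by rw [C.z_inv]; exact hinv o ho
    have h3 := key o⁻¹ (Subgroup.inv_mem _ ho)
    have h4 : (g * z * g⁻¹ * z⁻¹) * o * (g * z * g⁻¹ * z⁻¹)⁻¹ = o := by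
      calc (g * z * g⁻¹ * z⁻¹) * o * (g * z * g⁻¹ * z⁻¹)⁻¹ =
          (g * z * g⁻¹) * (z⁻¹ * o * z⁻¹⁻¹) * (g * z * g⁻¹)⁻¹ := by group
        _ = o := by rw [h2, h3, inv_inv]
    exact (mul_inv_eq_iff_eq_mul.1 h4).symm

end Cfsg.Agent.H319
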