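import Cfsg.Agent.H319.RedA
import Cfsg.Agent.S0215

/-!
# S3237, reduction, second part: tools (helper319)

* `card_normal_S4`: orders of normal subgroups of `S₄`;
* `resπ`, `Conf.card_eq_mul`: `|N| = |N ∩ Q| |π(N)|`;
* `false_of_unique`: a simple group is not nonabelian if it has an involution `a` whose centralizer is a 2-group with
  only one involution.
-/

set_option autoImplicit false

open Subgroup Cfsg.Agent.Co2Type.Quad

namespace Cfsg.Agent.H319

variable {G : Type*} [Group G] {Q : Subgroup G} {z : G} {π : ↥(centralizer ({z} : Set G)) →* S4}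

theorem cls_big : ∀ g : S4, inV g = false →
    6 ≤ (Finset.univ.filter fun x : S4 => inV x = false ∧ ∃ k : S4, k * g * k⁻¹ = x).card := by decide +kernel

/-- orders of normal subgroups of `S₄` -/
theorem card_normal_S4 {N : Subgroup S4} (hN : N.Normal) :
    N = ⊥ ∨ (N = V4 ∧ Nat.card N = 4) ∨ (V4 ≤ N ∧ (Nat.card N = 12 ∨ Nat.card N = 24)) := by
  classical
  by_cases h1 : N = ⊥
  · exact Or.inl h1
  have hle := V4_le hN h1
  right
  have hdvd : Nat.card N ∣ 24 := by rw [← card_S4]; exact Subgroup.card_subgroup_dvd_card N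
  have hdvd4 : 4 ∣ Nat.card N := by
    have h := Subgroup.card_dvd_of_le hle
    rwa [card_V4] at h
  by_cases h2 : N ≤ V4
  · left
    have h3 : N = V4 := le_antisymm h2 hle
    exact ⟨h3, by rw [h3]; exact card_V4⟩
  right
  refine ⟨hle, ?_⟩
  rw [SetLike.le_def] at h2
  push Not at h2
  obtain ⟨g, hg, hgV⟩ := h2
  have hgV' : inV g = false := by
    cases h : inV g with
    | false => rfl
    | true => exact absurd h hgV
  have h3 := cls_big g hgV'
  have hsub : (Finset.univ.filter fun x : S4 => inV x = false ∧ ∃ k : S4, k * g * k⁻¹ = x) ∪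
      (Finset.univ.filter fun x : S4 => inV x = true) ⊆ Finset.univ.filter fun x : S4 => x ∈ N := by
    intro x hx
    rw [Finset.mem_union, Finset.mem_filter, Finset.mem_filter] at hx
    rw [Finset.mem_filter]
    refine ⟨Finset.mem_univ _, ?_⟩
    rcases hx with ⟨-, -, k, rfl⟩ | ⟨-, hx⟩
    · exact hN.conj_mem g hg k
    · exact hle hx
  have hdis : Disjoint (Finset.univ.filter fun x : S4 => inV x = false ∧ ∃ k : S4, k * g * k⁻¹ = x)
      (Finset.univ.filter fun x : S4 => inV x = true) := by
    rw [Finset.disjoint_left]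
    intro x hx hx'
    rw [Finset.mem_filter] at hx hx'
    rw [hx.2.1] at hx'
    exact absurd hx'.2 (by simp)
  have h4 := Finset.card_le_card hsub
  rw [Finset.card_union_of_disjoint hdis] at h4
  have h5 : (Finset.univ.filter fun x : S4 => inV x = true).card = 4 := by decide +kernel
  have h6 : (Finset.univ.filter fun x : S4 => x ∈ N).card = Nat.card N := by
    rw [Nat.card_eq_fintype_card, Fintype.card_subtype]
  rw [h5, h6] at h4
  have h7 : Nat.card N ≤ 24 := Nat.le_of_dvd (by norm_num) hdvd
  interval_cases h8 : Nat.card N <;> omega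

/-- the restriction of `π` to `N` -/
def resπ (π : ↥(centralizer ({z} : Set G)) →* S4) {N : Subgroup G} (hN : NH z N) : N →* S4 where
  toFun n := π ⟨n, mem_centralizer_singleton_iff.2 (hN.le n n.2)⟩
  map_one' := by
    have : (⟨((1 : N) : G), mem_centralizer_singleton_iff.2 (hN.le _ (1 : N).2)⟩ :
      ↥(centralizer ({z} : Set G))) = 1 := rfl
    rw [this, map_one]
  map_mul' a b := by
    rw [← map_mul]; rfl

theorem resπ_apply {N : Subgroup G} (hN : NH z N) (n : N) :
    resπ π hN n = π ⟨n, mem_centralizer_singleton_iff.2 (hN.le n n.2)⟩ := rfl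

theorem Conf.resπ_normal (C : Conf Q z π) {N : Subgroup G} (hN : NH z N) : (resπ π hN).range.Normal := by
  refine ⟨?_⟩
  rintro _ ⟨n, rfl⟩ g
  obtain ⟨⟨c, hc⟩, rfl⟩ := C.surj g
  have hcz := mem_centralizer_singleton_iff.1 hc
  refine ⟨⟨c * n * c⁻¹, hN.conj c hcz n n.2⟩, ?_⟩
  rw [resπ_apply, resπ_apply, ← map_mul, ← map_inv, ← map_mul]; rfl

theorem Conf.card_eq_mul [Finite G] (C : Conf Q z π) {N : Subgroup G} (hN : NH z N) :
    Nat.card N = Nat.card (N ⊓ Q : Subgroup G) * Nat.card (resπ π hN).range := by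
  have h1 : Nat.card (resπ π hN).ker = Nat.card (N ⊓ Q : Subgroup G) := by
    refine Nat.card_congr ⟨fun n => ⟨(n : N), (n : N).2, (C.ker _).1 n.2⟩,
      fun q => ⟨⟨q, q.2.1⟩, (C.ker _).2 q.2.2⟩, ?_, ?_⟩
    · intro n; rfl
    · intro q; rfl
  have h2 := Subgroup.card_eq_card_quotient_mul_card_subgroup (resπ π hN).ker
  rw [Nat.card_congr (QuotientGroup.quotientKerEquivRange (resπ π hN)).toEquiv, h1] at h2
  rw [h2, mul_comm]

/-- a nonabelian simple group has no involution whose centralizer is a 2-group with one involution -/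
theorem false_of_unique {L : Type*} [Group L] [Finite L] [IsSimpleGroup L] (hna : ¬ ∀ x y : L, x * y = y * x)
    {a : L} (ha : orderOf a = 2) (h2 : IsPGroup 2 ↥(centralizer ({a} : Set L)))
    (hu : ∀ x : L, x * a = a * x → x * x = 1 → x = 1 ∨ x = a) : False := by
  have : Fact (Nat.Prime 2) := ⟨Nat.prime_two⟩
  have ha1 : a ≠ 1 := by
    intro h; rw [h, orderOf_one] at ha; omega
  have haa : a * a = 1 := by rw [← pow_two, ← ha, pow_orderOf_eq_one]
  obtain ⟨P, hP⟩ := h2.exists_le_sylow
  have haP : a ∈ (P : Subgroup L) := hP (mem_centralizer_singleton_iff.2 rfl)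
  -- a central involution of `P`
  have hPn : Nontrivial ↥(P : Subgroup L) := ⟨⟨⟨a, haP⟩, 1, fun h => ha1 (congrArg Subtype.val h)⟩⟩
  have hZ : Nontrivial (center ↥(P : Subgroup L)) := P.isPGroup'.center_nontrivial
  obtain ⟨s, hs⟩ : ∃ s : center ↥(P : Subgroup L), orderOf s = 2 := by
    apply exists_prime_orderOf_dvd_card'
    have h3 : IsPGroup 2 (center ↥(P : Subgroup L)) := P.isPGroup'.to_subgroup _
    obtain ⟨n, hn⟩ := IsPGroup.iff_card.1 h3
    have h4 : 1 < Nat.card (center ↥(P : Subgroup L)) := Finite.one_lt_card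
    rw [hn] at h4 ⊢
    cases n with
    | zero => simp at h4
    | succ n => exact Dvd.intro_left _ (pow_succ 2 n).symm
  have hs1 : ((s : ↥(P : Subgroup L)) : L) ≠ 1 := by
    intro h
    have : s = 1 := Subtype.ext (Subtype.ext h)
    rw [this, orderOf_one] at hs; omega
  have hss : ((s : ↥(P : Subgroup L)) : L) * s = 1 := by
    have : s * s = 1 := by
      have h := pow_orderOf_eq_one s
      rwa [hs, pow_two] at h
    exact congrArg (fun t : center ↥(P : Subgroup L) => ((t : ↥(P : Subgroup L)) : L)) this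
  have hsc : ∀ p ∈ (P : Subgroup L), p * ((s : ↥(P : Subgroup L)) : L) = s * p := by
    intro p hp
    exact congrArg Subtype.val (mem_center_iff.1 s.2 ⟨p, hp⟩)
  have hsa : ((s : ↥(P : Subgroup L)) : L) = a :=
    (hu _ (hsc a haP).symm hss).resolve_left hs1
  have hPc : (P : Subgroup L) ≤ centralizer ({a} : Set L) := fun p hp => by
    rw [mem_centralizer_singleton_iff, ← hsa]; exact hsc p hp
  obtain ⟨N, hN, hodd, hc⟩ := Cfsg.Agent.S0215.result P a ha haP (by
    intro g hg
    refine (hu _ (mem_centralizer_singleton_iff.1 (hPc hg)) ?_).resolve_left ?_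
    · calc g * a * g⁻¹ * (g * a * g⁻¹) = g * (a * a) * g⁻¹ := by group
        _ = 1 := by rw [haa]; group
    · intro h
      apply ha1
      rw [mul_inv_eq_one] at h
      exact mul_eq_left.1 h)
  rcases hN.eq_bot_or_eq_top with h | h
  · -- `a` is central
    have hac : ∀ g : L, a * g = g * a := by
      intro g
      have h3 := hc g
      rw [h, mem_bot, mul_inv_eq_one, mul_inv_eq_iff_eq_mul] at h3
      exact h3
    have hcen : center L ≠ ⊥ := by
      intro hb
      have : a ∈ center L := mem_center_iff.2 fun g => (hac g).symm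
      rw [hb, mem_bot] at this
      exact ha1 this
    have htop := (inferInstance : (center L).Normal).eq_bot_or_eq_top.resolve_left hcen
    apply hna
    intro x y
    have hy : y ∈ center L := by rw [htop]; exact mem_top y
    exact mem_center_iff.1 hy x
  · have h3 : 2 ∣ Nat.card L := ha ▸ orderOf_dvd_natCard a
    rw [h, Nat.card_congr Subgroup.topEquiv.toEquiv] at hodd
    exact Nat.not_even_iff_odd.2 hodd (even_iff_two_dvd.2 h3)

end Cfsg.Agent.H319
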