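import Cfsg.Agent.H319.RedE

/-!
# S3237, reduction, sixth part: two factors are impossible (helper319)
-/

set_option autoImplicit false

open Subgroup Cfsg.Agent.Co2Type.Quad

namespace Cfsg.Agent.H319

variable {G : Type*} [Group G] {Q : Subgroup G} {z : G} {π : ↥(centralizer ({z} : Set G)) →* S4}
variable {M L L' : Subgroup G} {a a' x y : G} {hy : y ∈ centralizer ({z} : Set G)}

namespace Two

variable (t : Two M L L' Q z π a a' x y hy)

include t

theorem zC {u : G} (hu : u ∈ L) : u ∈ centralizer ({z} : Set G) ↔ u * a = a * u := by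
  rw [mem_centralizer_singleton_iff]; exact t.commz hu

theorem aa (C : Conf Q z π) : a * a = 1 := by
  have h1 := C.zz
  have h2 := t.comm a t.ha a' t.ha'
  have h3 : (a * a) * (a' * a') = 1 * 1 := by
    calc (a * a) * (a' * a') = a * (a * a') * a' := by group
      _ = a * (a' * a) * a' := by rw [h2]
      _ = (a * a') * (a * a') := by group
      _ = z * z := by rw [← t.hz]
      _ = 1 * 1 := by rw [h1, one_mul]
  exact (t.uniq _ (L.mul_mem t.ha t.ha) _ L.one_mem _ (L'.mul_mem t.ha' t.ha') _ L'.one_mem h3).1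

/-- `a` is the only involution of `C_L(z)` if `|C_L(z)| = 8` -/
theorem unique_eight [Finite G] (C : Conf Q z π)
    (hd : Nat.card (L ⊓ centralizer ({z} : Set G) : Subgroup G) = 8)
    (hq : Nat.card (M ⊓ centralizer ({z} : Set G) ⊓ Q : Subgroup G) = 16) :
    ∀ e ∈ L ⊓ centralizer ({z} : Set G), e * e = 1 → e = 1 ∨ e = a := by
  classical
  set D := M ⊓ centralizer ({z} : Set G) with hD
  set D1 := L ⊓ centralizer ({z} : Set G) with hD1
  have hN : NH z D := nh_inf t.normal z
  have hLM : L ≤ M := fun u hu => (t.mem u).2 ⟨u, hu, 1, L'.one_mem, (mul_one u).symm⟩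
  have hle : D1 ≤ D := fun u hu => ⟨hLM hu.1, hu.2⟩
  have hDc : Nat.card D = 64 := by
    have := t.card_cent
    rw [← hD, ← hD1, hd] at this
    exact this
  have haz : a ∈ centralizer ({z} : Set G) := (t.zC t.ha).2 rfl
  have haD1 : a ∈ D1 := ⟨t.ha, haz⟩
  -- `π(D) = V₄`
  have hmul := C.card_eq_mul hN
  rw [hDc, hq] at hmul
  have hr4 : Nat.card (resπ π hN).range = 4 := by omega
  have hrV : (resπ π hN).range = V4 := by
    rcases card_normal_S4 (C.resπ_normal hN) with h | h | h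
    · rw [h, Subgroup.card_bot] at hr4; omega
    · exact h.1
    · rcases h.2 with h | h <;> omega
  have hV : ∀ u (hu : u ∈ D), inV (π ⟨u, hu.2⟩) = true := by
    intro u hu
    have h1 : resπ π hN ⟨u, hu⟩ ∈ (resπ π hN).range := ⟨_, rfl⟩
    rw [hrV] at h1
    exact h1
  have hπQ : ∀ u (hu : u ∈ centralizer ({z} : Set G)), π ⟨u, hu⟩ = 1 ↔ u ∈ Q := fun u hu => C.ker ⟨u, hu⟩
  have hπmul : ∀ u v (hu : u ∈ centralizer ({z} : Set G)) (hv : v ∈ centralizer ({z} : Set G)),
      π ⟨u * v, mul_mem hu hv⟩ = π ⟨u, hu⟩ * π ⟨v, hv⟩ := fun u v hu hv => map_mul π ⟨u, hu⟩ ⟨v, hv⟩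
  -- `D1` is not contained in `Q`
  have hnQ : ¬ D1 ≤ Q := by
    intro hQ
    have hDQ : D ≤ Q := by
      intro w hw
      obtain ⟨u, hu, v, hv, rfl⟩ := (t.mem w).1 hw.1
      obtain ⟨h3, h4⟩ := t.split hu hv (mem_centralizer_singleton_iff.1 hw.2)
      refine Q.mul_mem (hQ ⟨hu, mem_centralizer_singleton_iff.2 h3⟩) ?_
      have h5 : x⁻¹ * v * x ∈ D1 := by
        refine ⟨(t.xL v).1 hv, mem_centralizer_singleton_iff.2 ?_⟩
        have h6 := t.xz
        calc x⁻¹ * v * x * z = x⁻¹ * v * (x * z) := by group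
          _ = x⁻¹ * (v * z) * x := by rw [h6]; group
          _ = x⁻¹ * (z * v) * x := by rw [h4]
          _ = (x⁻¹ * (z * x)) * (x⁻¹ * v * x) := by group
          _ = (x⁻¹ * (x * z)) * (x⁻¹ * v * x) := by rw [h6]
          _ = z * (x⁻¹ * v * x) := by group
      have h7 := C.large.conj_mem x t.xz _ (hQ h5)
      have e : x * (x⁻¹ * v * x) * x⁻¹ = v := by group
      rwa [e] at h7
    rw [inf_eq_left.2 hDQ, hDc] at hq
    omega
  rw [SetLike.le_def] at hnQ
  push Not at hnQ
  obtain ⟨d0, hd0, hd0Q⟩ := hnQ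
  -- conjugation by `y`
  have hyz := mem_centralizer_singleton_iff.1 hy
  have hyD1 : ∀ u ∈ D1, y * u * y⁻¹ ∈ D1 := by
    rintro u ⟨hu, huz⟩
    exact ⟨t.yL u hu, Subgroup.mul_mem _ (Subgroup.mul_mem _ hy huz) (Subgroup.inv_mem _ hy)⟩
  have hyπ : ∀ u (hu : u ∈ D1), π ⟨y * u * y⁻¹, (hyD1 u hu).2⟩ = π ⟨y, hy⟩ * π ⟨u, hu.2⟩ * (π ⟨y, hy⟩)⁻¹ := by
    intro u hu
    rw [← map_mul, ← map_inv, ← map_mul]; rfl
  set s := π ⟨y, hy⟩ with hs
  have hd0V := hV d0 (hle hd0)
  have hd01 : π ⟨d0, hd0.2⟩ ≠ 1 := fun h => hd0Q ((hπQ d0 hd0.2).1 h)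
  -- the kernel on `D1`
  let ρ : D1 →* S4 := (resπ π hN).comp (Subgroup.inclusion hle)
  have hρ : ∀ u : D1, ρ u = π ⟨u, u.2.2⟩ := fun u => rfl
  have hrange : ρ.range ≤ V4 := by
    rintro _ ⟨u, rfl⟩
    exact hV u (hle u.2)
  have hrc : Nat.card ρ.range = 4 := by
    have h1 : Nat.card ρ.range ∣ 4 := by
      have := Subgroup.card_dvd_of_le hrange
      rwa [card_V4] at this
    have h2 : 2 < Nat.card ρ.range := by
      have hF : Fintype ρ.range := Fintype.ofFinite _
      rw [Nat.card_eq_fintype_card, Fintype.two_lt_card_iff]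
      refine ⟨⟨ρ ⟨_, hyD1 d0 hd0⟩, _, rfl⟩, ⟨ρ ⟨d0, hd0⟩, _, rfl⟩, 1, ?_, ?_, ?_⟩
      · intro h
        have h3 : ρ ⟨_, hyD1 d0 hd0⟩ = ρ ⟨d0, hd0⟩ := congrArg Subtype.val h
        rw [hρ, hρ] at h3
        exact V_three_ne s t.y1 t.y3 _ hd0V hd01 (by rw [← hyπ d0 hd0]; exact h3)
      · intro h
        have h3 : ρ ⟨_, hyD1 d0 hd0⟩ = 1 := congrArg Subtype.val h
        rw [hρ] at h3
        apply hd01
        have h4 : s * π ⟨d0, hd0.2⟩ * s⁻¹ = 1 := by rw [← hyπ d0 hd0]; exact h3
        rw [mul_inv_eq_one] at h4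
        exact mul_eq_left.1 h4
      · intro h
        have h3 : ρ ⟨d0, hd0⟩ = 1 := congrArg Subtype.val h
        rw [hρ] at h3
        exact hd01 h3
    have h3 : Nat.card ρ.range ≤ 4 := Nat.le_of_dvd (by norm_num) h1
    interval_cases h4 : Nat.card ρ.range
    · exfalso; revert h1; decide
    · rfl
  have hkc : Nat.card ρ.ker = 2 := by
    have h2 := Subgroup.card_eq_card_quotient_mul_card_subgroup ρ.ker
    rw [Nat.card_congr (QuotientGroup.quotientKerEquivRange ρ).toEquiv, hrc, hd] at h2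
    omega
  have hker : ∀ e ∈ D1, e ∈ Q → e = 1 ∨ e = a := by
    intro e he heQ
    have h1 : (⟨a, haD1⟩ : D1) ∈ ρ.ker := (hπQ a haz).2 t.aQ
    have h2 : (⟨e, he⟩ : D1) ∈ ρ.ker := (hπQ e he.2).2 heQ
    rcases eq_of_card_two hkc.le h1 (fun h => t.ne (congrArg Subtype.val h)) h2 with h | h
    · exact Or.inl (congrArg Subtype.val h)
    · exact Or.inr (congrArg Subtype.val h)
  have haa := t.aa C
  have hac : ∀ u ∈ D1, u * a = a * u := fun u hu => (t.zC hu.1).1 hu.2
  have hd0sq : d0 * d0 = 1 ∨ d0 * d0 = a := by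
    apply hker _ (D1.mul_mem hd0 hd0)
    rw [← hπQ _ (mul_mem hd0.2 hd0.2), hπmul _ _ hd0.2 hd0.2]
    exact V4_sq _ hd0V
  have hyinv : ∀ g : G, (g = 1 ∨ g = a) → y * g * y⁻¹ = g := by
    rintro g (rfl | rfl)
    · group
    · exact t.ya
  -- squares of elements outside `Q`
  have hsq : ∀ e ∈ D1, e ∉ Q → e * e = d0 * d0 := by
    intro e he heQ
    have heV := hV e (hle he)
    have he1 : π ⟨e, he.2⟩ ≠ 1 := fun h => heQ ((hπQ e he.2).1 h)
    have key : ∀ f (hf : f ∈ D1), π ⟨e, he.2⟩ = π ⟨f, hf.2⟩ → f * f = d0 * d0 → e * e = d0 * d0 := by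
      intro f hf hef hff
      have h1 : f⁻¹ * e ∈ Q := by
        rw [← hπQ _ (mul_mem (inv_mem hf.2) he.2), hπmul _ _ (inv_mem hf.2) he.2, hef]
        have h2 : π ⟨f⁻¹, inv_mem hf.2⟩ = (π ⟨f, hf.2⟩)⁻¹ := map_inv π ⟨f, hf.2⟩
        rw [h2, inv_mul_cancel]
      have h2 := hker _ (D1.mul_mem (D1.inv_mem hf) he) h1
      have h3 : e = f ∨ e = f * a := by
        rcases h2 with h2 | h2
        · left; exact (inv_mul_eq_one.1 h2).symm
        · right; exact eq_mul_of_inv_mul_eq h2
      rcases h3 with h3 | h3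
      · rw [h3]; exact hff
      · rw [h3]
        calc f * a * (f * a) = f * (a * f) * a := by group
          _ = f * (f * a) * a := by rw [hac f hf]
          _ = f * f * (a * a) := by group
          _ = d0 * d0 := by rw [haa, hff, mul_one]
    have hyd : (y * d0 * y⁻¹) * (y * d0 * y⁻¹) = d0 * d0 := by
      calc (y * d0 * y⁻¹) * (y * d0 * y⁻¹) = y * (d0 * d0) * y⁻¹ := by group
        _ = d0 * d0 := hyinv _ hd0sq
    have hyyd : (y * (y * d0 * y⁻¹) * y⁻¹) * (y * (y * d0 * y⁻¹) * y⁻¹) = d0 * d0 := by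
      calc (y * (y * d0 * y⁻¹) * y⁻¹) * (y * (y * d0 * y⁻¹) * y⁻¹) =
          y * ((y * d0 * y⁻¹) * (y * d0 * y⁻¹)) * y⁻¹ := by group
        _ = y * (d0 * d0) * y⁻¹ := by rw [hyd]
        _ = d0 * d0 := hyinv _ hd0sq
    rcases V_three s t.y1 t.y3 _ hd0V hd01 _ heV he1 with h | h | h
    · exact key d0 hd0 h rfl
    · exact key _ (hyD1 d0 hd0) (by rw [h, hyπ d0 hd0]) hyd
    · exact key _ (hyD1 _ (hyD1 d0 hd0)) (by rw [h, hyπ _ (hyD1 d0 hd0), hyπ d0 hd0]) hyyd
  rcases hd0sq with h1 | h1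
  · -- everything has square one
    exfalso
    have hall : ∀ e ∈ D1, e * e = 1 := by
      intro e he
      by_cases heQ : e ∈ Q
      · rcases hker e he heQ with h | h
        · rw [h, one_mul]
        · rw [h, haa]
      · rw [hsq e he heQ, h1]
    have hab : ∀ u ∈ D1, ∀ v ∈ D1, u * v = v * u := by
      intro u hu v hv
      have h2 : u⁻¹ = u := inv_eq_of_mul_eq_one_left (hall u hu)
      have h3 : v⁻¹ = v := inv_eq_of_mul_eq_one_left (hall v hv)
      have h4 : (u * v)⁻¹ = u * v := inv_eq_of_mul_eq_one_left (hall _ (D1.mul_mem hu hv))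
      rw [← h4, mul_inv_rev, h2, h3]
    have h5 := (C.card_le_of_comm hN (t.abelian hab)).1
    rw [hDc] at h5
    omega
  · intro e he hee
    apply hker e he
    by_contra heQ
    rw [hsq e he heQ, h1] at hee
    exact t.ne hee

/-- **two factors are impossible** -/
theorem false [Finite G] (C : Conf Q z π) : False := by
  classical
  have h2p : Fact (Nat.Prime 2) := ⟨Nat.prime_two⟩
  set D := M ⊓ centralizer ({z} : Set G) with hD
  set D1 := L ⊓ centralizer ({z} : Set G) with hD1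
  have hN : NH z D := nh_inf t.normal z
  have hcard := t.card_cent
  rw [← hD, ← hD1] at hcard
  have haz : a ∈ centralizer ({z} : Set G) := (t.zC t.ha).2 rfl
  have haD1 : a ∈ D1 := ⟨t.ha, haz⟩
  have hdvd : Nat.card D ∣ 768 := by
    rw [← C.card_H]
    exact Subgroup.card_dvd_of_le inf_le_right
  set d := Nat.card D1 with hd
  have hd27 : d ≤ 27 := by
    by_contra hlt
    push Not at hlt
    have h1 := Nat.le_of_dvd (by norm_num) hdvd
    rw [hcard] at h1
    nlinarith
  have hdc := sq_dvd d hd27 (hcard ▸ hdvd)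
  have hmul := C.card_eq_mul hN
  have hd1 : d ≠ 1 := by
    intro h
    have := Subgroup.eq_bot_of_card_eq D1 (hd ▸ h)
    rw [this, mem_bot] at haD1
    exact t.ne haD1
  have hpos : 0 < d := Nat.card_pos
  -- the unique involution
  have hu : IsPGroup 2 D1 ∧ ∀ e ∈ D1, e * e = 1 → e = 1 ∨ e = a := by
    have hr : Nat.card (resπ π hN).range = 1 ∨ Nat.card (resπ π hN).range = 4 := by
      rcases card_normal_S4 (C.resπ_normal hN) with h | h | h
      · left; rw [h]; exact Subgroup.card_bot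
      · right; exact h.2
      · exfalso
        have h3 : 3 ∣ d * d := by
          rw [← hcard, hmul]
          rcases h.2 with h | h <;> rw [h]
          · exact Dvd.dvd.mul_left (by norm_num) _
          · exact Dvd.dvd.mul_left (by norm_num) _
        rcases hdc with h | h | h | h | h <;> rw [h] at h3 <;> revert h3 <;> decide
    rcases C.card_inf hN with h4 | h4 | h4
    · have hle := C.le_of_card_le hN h4
      rw [inf_eq_left.2 hle, hcard] at h4
      have hd2 : d = 2 := by
        rcases hdc with h | h | h | h | h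
        · exact absurd h hd1
        · exact h
        all_goals rw [h] at h4; omega
      refine ⟨IsPGroup.of_card (n := 1) (by rw [← hd, hd2]; norm_num), ?_⟩
      intro e he _
      exact eq_of_card_two (by rw [← hd, hd2]) haD1 t.ne he
    · have h16 := h4.2
      rw [h16, hcard] at hmul
      have hd48 : d = 4 ∨ d = 8 := by
        rcases hdc with h | h | h | h | h <;> rcases hr with h' | h' <;> rw [h, h'] at hmul <;> omega
      rcases hd48 with h | h
      · exfalso
        have hab : ∀ u ∈ D1, ∀ v ∈ D1, u * v = v * u := by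
          intro u hu v hv
          have hc : Nat.card D1 = 2 ^ 2 := by rw [← hd, h]; norm_num
          have := IsPGroup.isMulCommutative_of_card_eq_prime_sq hc
          exact congrArg Subtype.val (this.1.1 ⟨u, hu⟩ ⟨v, hv⟩)
        have h5 := (C.card_le_of_comm hN (t.abelian hab)).1
        rw [hcard, h] at h5
        omega
      · refine ⟨IsPGroup.of_card (n := 3) (by rw [← hd, h]; norm_num), ?_⟩
        exact t.unique_eight C h h16
    · exfalso
      rw [inf_eq_right.2 h4, C.card, hcard] at hmul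
      rcases hdc with h | h | h | h | h <;> rcases hr with h' | h' <;> rw [h, h'] at hmul <;> omega
  -- the contradiction in `L`
  have hs := t.simple
  refine false_of_unique (L := L) (fun h => t.nonab fun u hu v hv => congrArg Subtype.val (h ⟨u, hu⟩ ⟨v, hv⟩))
    (a := ⟨a, t.ha⟩) ?_ ?_ ?_
  · rw [orderOf_mk]
    exact orderOf_eq_prime (by rw [pow_two]; exact t.aa C) t.ne
  · let f : ↥(centralizer ({(⟨a, t.ha⟩ : L)} : Set L)) →* D1 :=
      { toFun := fun c => ⟨(c : L), (c : L).2, (t.zC (c : L).2).2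
          (congrArg Subtype.val (mem_centralizer_singleton_iff.1 c.2))⟩
        map_one' := rfl
        map_mul' := fun _ _ => rfl }
    exact hu.1.of_injective f (fun u v h => Subtype.ext (Subtype.ext (congrArg (fun w : D1 => (w : G)) h)))
  · intro w hw hww
    have h1 : (w : G) ∈ D1 := ⟨w.2, (t.zC w.2).2 (congrArg Subtype.val hw)⟩
    rcases hu.2 w h1 (congrArg Subtype.val hww) with h | h
    · exact Or.inl (Subtype.ext h)
    · exact Or.inr (Subtype.ext h)

end Two

end Cfsg.Agent.H319
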