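import Cfsg.Agent.H319.VNorm

/-!
# The part above the four-group has class two (helper319)
-/

set_option autoImplicit false

open Subgroup Cfsg.Agent.Co2Type.Quad

namespace Cfsg.Agent.H319

variable {G : Type*} [Group G] {Q : Subgroup G} {z : G} {π : ↥(centralizer ({z} : Set G)) →* S4}

/-- preimage in `Q` of a subspace -/
def PT (h : Large Q z) (T : Submodule (ZMod 2) h.V) : Subgroup G where
  carrier := {x | ∃ hx : x ∈ Q, h.pr ⟨x, hx⟩ ∈ T}
  mul_mem' := by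
    rintro x y ⟨hx, hx1⟩ ⟨hy, hy1⟩
    exact ⟨Q.mul_mem hx hy, T.add_mem hx1 hy1⟩
  one_mem' := ⟨Q.one_mem, by
    have : h.pr ⟨1, Q.one_mem⟩ = 0 := h.pr_one
    rw [this]; exact T.zero_mem⟩
  inv_mem' := by
    rintro x ⟨hx, hx1⟩
    exact ⟨Q.inv_mem hx, T.neg_mem hx1⟩

theorem pt_le (h : Large Q z) (T : Submodule (ZMod 2) h.V) : PT h T ≤ Q := fun _ hx => hx.1

/-- the part of `D` above `V4` -/
def PV (π : ↥(centralizer ({z} : Set G)) →* S4) (D : Subgroup G) : Subgroup G where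
  carrier := {x | x ∈ D ∧ ∃ hx : x ∈ centralizer ({z} : Set G), π ⟨x, hx⟩ ∈ V4}
  mul_mem' := by
    rintro x y ⟨hx, hx1, hx2⟩ ⟨hy, hy1, hy2⟩
    exact ⟨D.mul_mem hx hy, mul_mem hx1 hy1, by
      have : π ⟨x * y, mul_mem hx1 hy1⟩ = π ⟨x, hx1⟩ * π ⟨y, hy1⟩ := map_mul π ⟨x, hx1⟩ ⟨y, hy1⟩
      rw [this]; exact V4.mul_mem hx2 hy2⟩
  one_mem' := ⟨D.one_mem, one_mem _, by
    have : π ⟨1, one_mem _⟩ = 1 := map_one π
    rw [this]; exact V4.one_mem⟩
  inv_mem' := by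
    rintro x ⟨hx, hx1, hx2⟩
    exact ⟨D.inv_mem hx, inv_mem hx1, by
      have : π ⟨x⁻¹, inv_mem hx1⟩ = (π ⟨x, hx1⟩)⁻¹ := map_inv π ⟨x, hx1⟩
      rw [this]; exact V4.inv_mem hx2⟩

theorem pv_le (D : Subgroup G) : PV π D ≤ D := fun _ hx => hx.1

theorem V4_conj : ∀ g v : S4, inV v = true → inV (g * v * g⁻¹) = true := by decide +kernel

theorem V4_comm : ∀ a b : S4, inV a = true → inV b = true → a * b * a⁻¹ * b⁻¹ = 1 := by decide +kernel

theorem V4_gen0 : ∀ a : S4, inV a = true → ∀ b : S4, inV b = true → ∀ v : S4, inV v = true →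
    a = 1 ∨ b = 1 ∨ a = b ∨ v = 1 ∨ v = a ∨ v = b ∨ v = a * b := by decide +kernel

theorem V4_gen (a b v : S4) (ha : inV a = true) (hb : inV b = true) (ha1 : a ≠ 1) (hb1 : b ≠ 1) (hab : a ≠ b)
    (hv : inV v = true) : v = 1 ∨ v = a ∨ v = b ∨ v = a * b := by
  rcases V4_gen0 a ha b hb v hv with h | h | h | h
  · exact absurd h ha1
  · exact absurd h hb1
  · exact absurd h hab
  · exact h

theorem pv_nh {D : Subgroup G} (hD : NH z D) : NH z (PV π D) := by
  refine ⟨fun n hn => hD.le n hn.1, ?_⟩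
  rintro c hc n ⟨hn, hn1, hn2⟩
  have hcm : c ∈ centralizer ({z} : Set G) := mem_centralizer_singleton_iff.2 hc
  refine ⟨hD.conj c hc n hn, mul_mem (mul_mem hcm hn1) (inv_mem hcm), ?_⟩
  have : π ⟨c * n * c⁻¹, mul_mem (mul_mem hcm hn1) (inv_mem hcm)⟩ = π ⟨c, hcm⟩ * π ⟨n, hn1⟩ * (π ⟨c, hcm⟩)⁻¹ := by
    rw [← map_mul, ← map_inv, ← map_mul]; rfl
  rw [this]
  exact V4_conj _ _ hn2

theorem cm_mul {K : Subgroup G} {x x' y : G} (hx : ∀ t ∈ K, x * t * x⁻¹ ∈ K) (h1 : x * y * x⁻¹ * y⁻¹ ∈ K)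
    (h2 : x' * y * x'⁻¹ * y⁻¹ ∈ K) : (x * x') * y * (x * x')⁻¹ * y⁻¹ ∈ K := by
  have e : (x * x') * y * (x * x')⁻¹ * y⁻¹ = (x * (x' * y * x'⁻¹ * y⁻¹) * x⁻¹) * (x * y * x⁻¹ * y⁻¹) := by group
  rw [e]
  exact K.mul_mem (hx _ h2) h1

theorem cm_symm {K : Subgroup G} {x y : G} (h1 : x * y * x⁻¹ * y⁻¹ ∈ K) : y * x * y⁻¹ * x⁻¹ ∈ K := by
  have e : y * x * y⁻¹ * x⁻¹ = (x * y * x⁻¹ * y⁻¹)⁻¹ := by group
  rw [e]
  exact K.inv_mem h1

theorem cm_self {K : Subgroup G} (x : G) : x * x * x⁻¹ * x⁻¹ ∈ K := by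
  have e : x * x * x⁻¹ * x⁻¹ = 1 := by group
  rw [e]; exact K.one_mem

/-- conjugation on `Q` and the action -/
theorem pr_conj (h : Large Q z) {c x : G} (hc : c * z = z * c) (hx : x ∈ Q) :
    h.pr ⟨c * x * c⁻¹, h.conj_mem c hc x hx⟩ = h.act ⟨c, mem_centralizer_singleton_iff.2 hc⟩ (h.pr ⟨x, hx⟩) := by
  rw [h.act_pr]; rfl

/-- **F4**: if `|D ∩ Q| = 16`, the part of `D` above `V4` has class at most two. -/
theorem Conf.class_two (C : Conf Q z π) {D : Subgroup G} (hD : NH z D) (hW8 : Nat.card (WN C.large D) = 8) :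
    ∀ x ∈ PV π D, ∀ y ∈ PV π D, ∀ t ∈ PV π D, (x * y * x⁻¹ * y⁻¹) * t = t * (x * y * x⁻¹ * y⁻¹) := by
  classical
  have := C.finiteQ
  have h : Large Q z := C.large
  have hW8' : Nat.card (WN h D) = 8 := hW8
  have hDb : D ≠ ⊥ := by
    rintro rfl
    have h1 : Nat.card (WN h (⊥ : Subgroup G)) ≤ 1 := by
      rw [Finite.card_le_one_iff_subsingleton]
      have h0 : ∀ v ∈ WN h (⊥ : Subgroup G), v = 0 := by
        rintro v ⟨x, hx, rfl⟩
        have hx1 : x = 1 := Subtype.ext (Subgroup.mem_bot.1 hx)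
        rw [hx1]; exact h.pr_one
      exact ⟨fun a b => Subtype.ext (by rw [h0 a a.2, h0 b b.2])⟩
    omega
  have hzD := z_mem h hD hDb
  obtain ⟨w, hw0, hwW, hqw, hiff, hfix⟩ := C.exists_w (inv_WN h hD) hW8'
  obtain ⟨u, huD, huw⟩ := hwW
  have hDc : ∀ x ∈ D, x ∈ centralizer ({z} : Set G) := fun x hx => mem_centralizer_singleton_iff.2 (hD.le x hx)
  -- conjugates of `u`
  have hcu : ∀ c, c * z = z * c → c * u * c⁻¹ = u ∨ c * u * c⁻¹ = u * z := by
    intro c hc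
    have h1 := pr_conj h hc u.2
    rw [show (⟨(u : G), u.2⟩ : Q) = u from rfl, huw, hfix, ← huw] at h1
    exact h.pr_eq_pr.1 h1
  have huz : (u : G) * z = z * u := h.comm_z u u.2
  have huz2 : (u : G) * z * z = u := by rw [mul_assoc, h.z_sq, mul_one]
  -- `D ∩ Q` centralizes `u`
  have hMu : ∀ m ∈ D, m ∈ Q → m * u = u * m := by
    intro m hm hmQ
    have h1 : h.pr ⟨m, hmQ⟩ ∈ WN h D := ⟨⟨m, hmQ⟩, hm, rfl⟩
    rw [hiff, ← huw, h.b_comm] at h1
    exact (h.b_pr ⟨m, hmQ⟩ u).1 h1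
  have hπQ : ∀ x (hx : x ∈ centralizer ({z} : Set G)), π ⟨x, hx⟩ = 1 → x ∈ Q := fun x hx h1 => (C.ker ⟨x, hx⟩).1 h1
  have hπmul : ∀ x y (hx : x ∈ centralizer ({z} : Set G)) (hy : y ∈ centralizer ({z} : Set G)),
      π ⟨x * y, mul_mem hx hy⟩ = π ⟨x, hx⟩ * π ⟨y, hy⟩ := fun x y hx hy => map_mul π ⟨x, hx⟩ ⟨y, hy⟩
  have hπinv : ∀ x (hx : x ∈ centralizer ({z} : Set G)),
      π ⟨x⁻¹, inv_mem hx⟩ = (π ⟨x, hx⟩)⁻¹ := fun x hx => map_inv π ⟨x, hx⟩
  -- (i) `PV` centralizes `u`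
  have hi : ∀ d ∈ PV π D, d * u = u * d := by
    rintro d ⟨hd, hdc, hdV⟩
    by_contra hne
    have hcd : ∀ c, c * z = z * c → c * u = u * c ∨ c * u = u * z * c := by
      intro c hc
      rcases hcu c hc with h1 | h1
      · left; exact mul_inv_eq_iff_eq_mul.1 h1
      · right; exact mul_inv_eq_iff_eq_mul.1 h1
    have hdu : d * u = u * z * d := (hcd d (hD.le d hd)).resolve_left hne
    have hd1 : π ⟨d, hdc⟩ ≠ 1 := fun h1 => hne (hMu d hd (hπQ d hdc h1))
    have hzc : ∀ c, c * z = z * c → c⁻¹ * z = z * c⁻¹ := by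
      intro c hc
      have : Commute c z := hc
      exact this.inv_left.eq
    -- all conjugates of `d` invert in the same way
    have hconj : ∀ c, c * z = z * c → (c * d * c⁻¹) * u = u * z * (c * d * c⁻¹) := by
      intro c hc
      have hcz : Commute c z := hc
      have hdz : Commute d z := hD.le d hd
      rcases hcd c⁻¹ (hzc c hc) with h1 | h1
      · have h2 : c * u = u * c := by
          have : c * (c⁻¹ * u) * c = c * (u * c⁻¹) * c := by rw [h1]
          have e1 : c * (c⁻¹ * u) * c = u * c := by group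
          have e2 : c * (u * c⁻¹) * c = c * u := by group
          rw [e1, e2] at this; exact this.symm
        calc (c * d * c⁻¹) * u = c * d * (c⁻¹ * u) := by group
          _ = c * (d * u) * c⁻¹ := by rw [h1]; group
          _ = (c * u) * z * d * c⁻¹ := by rw [hdu]; group
          _ = u * (c * z) * d * c⁻¹ := by rw [h2]; group
          _ = u * (z * c) * d * c⁻¹ := by rw [hc]
          _ = u * z * (c * d * c⁻¹) := by group
      · have h2 : c * u = u * z * c := by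
          have : c * (c⁻¹ * u) * c = c * (u * z * c⁻¹) * c := by rw [h1]
          have e1 : c * (c⁻¹ * u) * c = u * c := by group
          have e2 : c * (u * z * c⁻¹) * c = c * u * z := by group
          rw [e1, e2] at this
          have h3 : u * c * z = c * u * z * z := by rw [this]
          rw [mul_assoc (c * (u : G)), h.z_sq, mul_one] at h3
          rw [← h3, mul_assoc, hc, mul_assoc]
        calc (c * d * c⁻¹) * u = c * d * (c⁻¹ * u) := by group
          _ = c * (d * u) * z * c⁻¹ := by rw [h1]; group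
          _ = (c * u) * z * (d * z) * c⁻¹ := by rw [hdu]; group
          _ = (c * u) * (z * z) * d * c⁻¹ := by rw [hdz.eq]; group
          _ = u * z * c * d * c⁻¹ := by rw [h.z_sq, h2]; group
          _ = u * z * (c * d * c⁻¹) := by group
    obtain ⟨k, hk⟩ := not_central _ hd1
    obtain ⟨⟨c, hc⟩, rfl⟩ := C.surj k
    have hcz := mem_centralizer_singleton_iff.1 hc
    have h1 := hconj c hcz
    -- the product
    have hVk : inV (π ⟨c, hc⟩ * π ⟨d, hdc⟩ * (π ⟨c, hc⟩)⁻¹) = true := V4_conj _ _ hdV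
    have hprod1 : π ⟨d, hdc⟩ * (π ⟨c, hc⟩ * π ⟨d, hdc⟩ * (π ⟨c, hc⟩)⁻¹) ≠ 1 := by
      intro he
      apply hk
      have h3 : π ⟨d, hdc⟩ * π ⟨d, hdc⟩ = 1 := V4_sq _ hdV
      exact mul_left_cancel (he.trans h3.symm)
    obtain ⟨k', hk'⟩ := conj_V _ _ hdV (inV_mul _ _ hdV hVk) hd1 hprod1
    obtain ⟨⟨c', hc'⟩, rfl⟩ := C.surj k'
    have hcz' := mem_centralizer_singleton_iff.1 hc'
    have h2 := hconj c' hcz'
    set d₂ := c * d * c⁻¹ with hd₂
    set d₃ := c' * d * c'⁻¹ with hd₃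
    have hd₂D : d₂ ∈ D := hD.conj c hcz d hd
    have hd₃D : d₃ ∈ D := hD.conj c' hcz' d hd
    have hm : d * d₂ * d₃⁻¹ ∈ Q := by
      apply hπQ _ (mul_mem (mul_mem hdc (hDc _ hd₂D)) (inv_mem (hDc _ hd₃D)))
      have e2 : π ⟨d₂, hDc _ hd₂D⟩ = π ⟨c, hc⟩ * π ⟨d, hdc⟩ * (π ⟨c, hc⟩)⁻¹ := by
        rw [← map_mul, ← map_inv, ← map_mul]; rfl
      have e3 : π ⟨d₃, hDc _ hd₃D⟩ = π ⟨c', hc'⟩ * π ⟨d, hdc⟩ * (π ⟨c', hc'⟩)⁻¹ := by
        rw [← map_mul, ← map_inv, ← map_mul]; rfl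
      have e4 : π ⟨d * d₂ * d₃⁻¹, mul_mem (mul_mem hdc (hDc _ hd₂D)) (inv_mem (hDc _ hd₃D))⟩ =
          π ⟨d, hdc⟩ * π ⟨d₂, hDc _ hd₂D⟩ * (π ⟨d₃, hDc _ hd₃D⟩)⁻¹ := by
        rw [← map_mul, ← map_inv, ← map_mul]; rfl
      rw [e4, e2, e3, hk', mul_inv_cancel]
    have h3 := hMu _ (D.mul_mem (D.mul_mem hd hd₂D) (D.inv_mem hd₃D)) hm
    -- compute
    have hzd : Commute d z := hD.le d hd
    have hzd₂ : Commute d₂ z := hD.le d₂ hd₂D
    have hzd₃ : Commute d₃ z := hD.le d₃ hd₃D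
    have h4 : d * d₂ * u = u * (d * d₂) := by
      calc d * d₂ * u = d * (d₂ * u) := by group
        _ = (d * u) * z * d₂ := by rw [h1]; group
        _ = u * z * (d * z) * d₂ := by rw [hdu]; group
        _ = u * (z * z) * (d * d₂) := by rw [hzd.eq]; group
        _ = u * (d * d₂) := by rw [h.z_sq, mul_one]
    have h5 : d₃⁻¹ * u = u * d₃⁻¹ := by
      have h6 : (d * d₂) * (d₃⁻¹ * u) = (d * d₂) * (u * d₃⁻¹) := by
        calc (d * d₂) * (d₃⁻¹ * u) = d * d₂ * d₃⁻¹ * u := by group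
          _ = u * (d * d₂ * d₃⁻¹) := h3
          _ = (u * (d * d₂)) * d₃⁻¹ := by group
          _ = (d * d₂ * u) * d₃⁻¹ := by rw [h4]
          _ = (d * d₂) * (u * d₃⁻¹) := by group
      exact mul_left_cancel h6
    have h7 : d₃ * u = u * d₃ := by
      have : d₃ * (d₃⁻¹ * u) * d₃ = d₃ * (u * d₃⁻¹) * d₃ := by rw [h5]
      have e1 : d₃ * (d₃⁻¹ * u) * d₃ = u * d₃ := by group
      have e2 : d₃ * (u * d₃⁻¹) * d₃ = d₃ * u := by group
      rw [e1, e2] at this; exact this.symm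
    rw [h7] at h2
    have h8 : (u : G) * d₃ = u * (z * d₃) := by rw [h2]; group
    have h9 : d₃ = z * d₃ := mul_left_cancel h8
    exact h.z_ne (mul_eq_right.1 h9.symm)
  -- `{0, w}`
  let S₁ : Submodule (ZMod 2) h.V := Submodule.span (ZMod 2) {w}
  have hS₁ : ∀ v, v ∈ S₁ ↔ v = 0 ∨ v = w := by
    intro v
    rw [Submodule.mem_span_singleton]
    constructor
    · rintro ⟨a, rfl⟩
      have : ∀ a : ZMod 2, a = 0 ∨ a = 1 := by decide
      rcases this a with rfl | rfl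
      · left; exact zero_smul _ _
      · right; exact one_smul _ _
    · rintro (rfl | rfl)
      · exact ⟨0, zero_smul _ _⟩
      · exact ⟨1, one_smul _ _⟩
  have hS₁card : Nat.card S₁ = 2 := by
    have h1 := card_eq_pow h S₁
    rw [show Module.finrank (ZMod 2) S₁ = 1 from finrank_span_singleton hw0] at h1
    exact h1
  have hS₁inv : Inv h S₁ := by
    intro c v hv
    rw [hS₁] at hv ⊢
    rcases hv with rfl | rfl
    · left; exact map_zero _
    · right; exact hfix c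
  have hwW' : w ∈ WN h D := ⟨u, huD, huw⟩
  have hS₁le : S₁ ≤ WN h D := by
    intro v hv
    rcases (hS₁ v).1 hv with rfl | rfl
    · exact (WN h D).zero_mem
    · exact hwW'
  have hquart : ∀ y, π y ∈ V4 → ∀ v ∈ WN h D, h.act y v + v = 0 ∨ h.act y v + v = w := by
    intro y hy v hv
    exact (hS₁ _).1 (C.quart (inv_WN h hD) hS₁inv hS₁le (by rw [hW8', hS₁card]) hy hv)
  -- `PV` normalizes `PT T`
  have hnorm : ∀ T : Submodule (ZMod 2) h.V, w ∈ T → T ≤ WN h D → ∀ x ∈ PV π D, ∀ t ∈ PT h T,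
      x * t * x⁻¹ ∈ PT h T := by
    rintro T hwT hTW x ⟨hxD, hxc, hxV⟩ t ⟨ht, ht1⟩
    have hxz := hD.le x hxD
    refine ⟨h.conj_mem x hxz t ht, ?_⟩
    rw [pr_conj h hxz ht]
    have h1 := hquart ⟨x, mem_centralizer_singleton_iff.2 hxz⟩ hxV _ (hTW ht1)
    have h2 : h.act ⟨x, mem_centralizer_singleton_iff.2 hxz⟩ (h.pr ⟨t, ht⟩) =
        (h.act ⟨x, mem_centralizer_singleton_iff.2 hxz⟩ (h.pr ⟨t, ht⟩) + h.pr ⟨t, ht⟩) + h.pr ⟨t, ht⟩ := by
      rw [add_assoc, h.add_self, add_zero]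
    rw [h2]
    refine T.add_mem ?_ ht1
    rcases h1 with h3 | h3
    · rw [h3]; exact T.zero_mem
    · rw [h3]; exact hwT
  -- commutators with `D ∩ Q`
  have hcM : ∀ T : Submodule (ZMod 2) h.V, w ∈ T → ∀ x ∈ PV π D, ∀ m ∈ D, m ∈ Q → x * m * x⁻¹ * m⁻¹ ∈ PT h T := by
    rintro T hwT x ⟨hxD, hxc, hxV⟩ m hm hmQ
    have hxz := hD.le x hxD
    refine ⟨Q.mul_mem (h.conj_mem x hxz m hmQ) (Q.inv_mem hmQ), ?_⟩
    have h1 : h.pr ⟨x * m * x⁻¹ * m⁻¹, Q.mul_mem (h.conj_mem x hxz m hmQ) (Q.inv_mem hmQ)⟩ =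
        h.pr ⟨x * m * x⁻¹, h.conj_mem x hxz m hmQ⟩ + h.pr ⟨m, hmQ⟩ := by
      rw [← h.neg_eq (h.pr ⟨m, hmQ⟩), ← h.pr_inv, ← h.pr_mul]; rfl
    rw [h1, pr_conj h hxz hmQ]
    rcases hquart ⟨x, mem_centralizer_singleton_iff.2 hxz⟩ hxV _ ⟨⟨m, hmQ⟩, hm, rfl⟩ with h3 | h3
    · rw [h3]; exact T.zero_mem
    · rw [h3]; exact hwT
  -- commutators lie in `Q`
  have hcQ : ∀ x ∈ PV π D, ∀ y ∈ PV π D, x * y * x⁻¹ * y⁻¹ ∈ Q := by
    rintro x ⟨hxD, hxc, hxV⟩ y ⟨hyD, hyc, hyV⟩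
    apply hπQ _ (mul_mem (mul_mem (mul_mem hxc hyc) (inv_mem hxc)) (inv_mem hyc))
    have e4 : π ⟨x * y * x⁻¹ * y⁻¹, mul_mem (mul_mem (mul_mem hxc hyc) (inv_mem hxc)) (inv_mem hyc)⟩ =
          π ⟨x, hxc⟩ * π ⟨y, hyc⟩ * (π ⟨x, hxc⟩)⁻¹ * (π ⟨y, hyc⟩)⁻¹ := by
      rw [← map_mul, ← map_inv, ← map_inv, ← map_mul, ← map_mul]; rfl
    rw [e4]
    exact V4_comm _ _ hxV hyV
  have hcD : ∀ x ∈ PV π D, ∀ y ∈ PV π D, x * y * x⁻¹ * y⁻¹ ∈ D := fun x hx y hy =>
    D.mul_mem (D.mul_mem (D.mul_mem hx.1 hy.1) (D.inv_mem hx.1)) (D.inv_mem hy.1)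
  -- (iii)
  have hiii : ∀ x ∈ PV π D, ∀ y ∈ PV π D, x * y * x⁻¹ * y⁻¹ ∈ PT h S₁ := by
    by_cases hall : ∀ x ∈ PV π D, x ∈ Q
    · intro x hx y hy
      exact hcM S₁ ((hS₁ w).2 (Or.inr rfl)) x hx y hy.1 (hall y hy)
    push Not at hall
    obtain ⟨a, ha, haQ⟩ := hall
    obtain ⟨haD, hac, haV⟩ := id ha
    have ha1 : π ⟨a, hac⟩ ≠ 1 := fun h1 => haQ (hπQ a hac h1)
    obtain ⟨k, hk⟩ := not_central _ ha1
    obtain ⟨⟨c, hc⟩, rfl⟩ := C.surj k
    have hcz := mem_centralizer_singleton_iff.1 hc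
    obtain ⟨b, hb, hbV, hbc, hba, hb1⟩ : ∃ b, ∃ hb : b ∈ PV π D, ∃ hbc : b ∈ centralizer ({z} : Set G),
        inV (π ⟨b, hbc⟩) = true ∧ π ⟨b, hbc⟩ ≠ π ⟨a, hac⟩ ∧ π ⟨b, hbc⟩ ≠ 1 := by
      have hbP := (pv_nh (π := π) hD).conj c hcz a ha
      have hbc : c * a * c⁻¹ ∈ centralizer ({z} : Set G) := mul_mem (mul_mem hc hac) (inv_mem hc)
      have e2 : π ⟨c * a * c⁻¹, hbc⟩ = π ⟨c, hc⟩ * π ⟨a, hac⟩ * (π ⟨c, hc⟩)⁻¹ := by
        rw [← map_mul, ← map_inv, ← map_mul]; rfl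
      refine ⟨_, hbP, hbc, ?_, ?_, ?_⟩
      · rw [e2]; exact V4_conj _ _ haV
      · rw [e2]; exact hk
      · rw [e2]
        intro he
        apply ha1
        rw [mul_inv_eq_one] at he
        exact mul_eq_left.1 he
    have hdec : ∀ x ∈ PV π D, ∃ m, m ∈ D ∧ m ∈ Q ∧ (x = m ∨ x = m * a ∨ x = m * b ∨ x = m * (a * b)) := by
      rintro x ⟨hxD, hxc, hxV⟩
      have key : ∀ s (hs : s ∈ D) (hsc : s ∈ centralizer ({z} : Set G)), π ⟨x, hxc⟩ = π ⟨s, hsc⟩ →
          x * s⁻¹ ∈ D ∧ x * s⁻¹ ∈ Q := by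
        intro s hs hsc he
        refine ⟨D.mul_mem hxD (D.inv_mem hs), hπQ _ (mul_mem hxc (inv_mem hsc)) ?_⟩
        have : π ⟨x * s⁻¹, mul_mem hxc (inv_mem hsc)⟩ = π ⟨x, hxc⟩ * (π ⟨s, hsc⟩)⁻¹ := by
          rw [← map_inv, ← map_mul]; rfl
        rw [this, he, mul_inv_cancel]
      have hV := V4_gen (π ⟨a, hac⟩) (π ⟨b, hbV⟩) (π ⟨x, hxc⟩) haV hbc ha1 hb1 (fun he => hba he.symm) hxV
      rcases hV with h1 | h1 | h1 | h1
      · exact ⟨x, hxD, hπQ x hxc h1, Or.inl rfl⟩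
      · obtain ⟨h2, h3⟩ := key a haD hac h1
        exact ⟨_, h2, h3, Or.inr (Or.inl (by group))⟩
      · obtain ⟨h2, h3⟩ := key b hb.1 hbV h1
        exact ⟨_, h2, h3, Or.inr (Or.inr (Or.inl (by group)))⟩
      · obtain ⟨h2, h3⟩ := key (a * b) (D.mul_mem haD hb.1) (mul_mem hac hbV) (by rw [h1, ← map_mul]; rfl)
        exact ⟨_, h2, h3, Or.inr (Or.inr (Or.inr (by group)))⟩
    -- generic: if `[a, b] ∈ PT T`, all commutators are
    have hgen : ∀ T : Submodule (ZMod 2) h.V, w ∈ T → T ≤ WN h D → a * b * a⁻¹ * b⁻¹ ∈ PT h T →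
        ∀ x ∈ PV π D, ∀ y ∈ PV π D, x * y * x⁻¹ * y⁻¹ ∈ PT h T := by
      intro T hwT hTW hab
      have hN := hnorm T hwT hTW
      have hMx : ∀ x ∈ PV π D, ∀ m ∈ D, m ∈ Q → m * x * m⁻¹ * x⁻¹ ∈ PT h T :=
        fun x hx m hm hmQ => cm_symm (hcM T hwT x hx m hm hmQ)
      have hMV : ∀ m ∈ D, m ∈ Q → m ∈ PV π D := by
        intro m hm hmQ
        refine ⟨hm, hDc m hm, ?_⟩
        rw [(C.ker ⟨m, hDc m hm⟩).2 hmQ]
        exact V4.one_mem
      -- from commuting with `a` and `b` on the left to everything on the left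
      have hleft : ∀ y, y ∈ PV π D → a * y * a⁻¹ * y⁻¹ ∈ PT h T → b * y * b⁻¹ * y⁻¹ ∈ PT h T →
          ∀ x ∈ PV π D, x * y * x⁻¹ * y⁻¹ ∈ PT h T := by
        intro y hy h1 h2 x hx
        obtain ⟨m, hm, hmQ, h3 | h3 | h3 | h3⟩ := hdec x hx
        · rw [h3]; exact hMx y hy m hm hmQ
        · rw [h3]; exact cm_mul (hN m (hMV m hm hmQ)) (hMx y hy m hm hmQ) h1
        · rw [h3]; exact cm_mul (hN m (hMV m hm hmQ)) (hMx y hy m hm hmQ) h2
        · rw [h3]; exact cm_mul (hN m (hMV m hm hmQ)) (hMx y hy m hm hmQ) (cm_mul (hN a ha) h1 h2)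
      have hA := hleft a ha (cm_self a) (cm_symm hab)
      have hB := hleft b hb hab (cm_self b)
      intro x hx y hy
      exact hleft y hy (cm_symm (hA y hy)) (cm_symm (hB y hy)) x hx
    have habQ := hcQ a ha b hb
    set k := h.pr ⟨a * b * a⁻¹ * b⁻¹, habQ⟩ with hkdef
    have hkW : k ∈ WN h D := ⟨⟨_, habQ⟩, hcD a ha b hb, rfl⟩
    let T : Submodule (ZMod 2) h.V :=
      { carrier := {v | v = 0 ∨ v = w ∨ v = k ∨ v = w + k}
        add_mem' := by
          have hww := h.add_self w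
          have hkk := h.add_self k
          have e1 : w + (w + k) = k := by rw [← add_assoc, hww, zero_add]
          have e2 : k + (w + k) = w := by rw [add_comm w k, ← add_assoc, hkk, zero_add]
          rintro v v' (rfl | rfl | rfl | rfl) (rfl | rfl | rfl | rfl)
          · left; exact add_zero _
          · right; left; exact zero_add _
          · right; right; left; exact zero_add _
          · right; right; right; exact zero_add _
          · right; left; exact add_zero _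
          · left; exact hww
          · right; right; right; rfl
          · right; right; left; exact e1
          · right; right; left; exact add_zero _
          · right; right; right; exact add_comm _ _
          · left; exact hkk
          · right; left; exact e2
          · right; right; right; exact add_zero _
          · right; right; left; rw [add_comm]; exact e1
          · right; left; rw [add_comm]; exact e2
          · left; exact h.add_self _
        zero_mem' := Or.inl rfl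
        smul_mem' := by
          intro c v hv
          have : ∀ a : ZMod 2, a = 0 ∨ a = 1 := by decide
          rcases this c with rfl | rfl
          · left; exact zero_smul _ _
          · rw [one_smul]; exact hv }
    have hTW : T ≤ WN h D := by
      rintro v (rfl | rfl | rfl | rfl)
      · exact (WN h D).zero_mem
      · exact hwW'
      · exact hkW
      · exact (WN h D).add_mem hwW' hkW
    have hTall := hgen T (Or.inr (Or.inl rfl)) hTW ⟨habQ, Or.inr (Or.inr (Or.inl rfl))⟩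
    have hTinv : Inv h T := by
      have hk1 : ∀ c, h.act c k ∈ T := by
        rintro ⟨c, hc⟩
        have hcz := mem_centralizer_singleton_iff.1 hc
        have h1 := pr_conj h hcz habQ
        have h2 : (⟨c, mem_centralizer_singleton_iff.2 hcz⟩ : ↥(centralizer ({z} : Set G))) = ⟨c, hc⟩ := rfl
        rw [h2, ← hkdef] at h1
        rw [← h1]
        have h3 := hTall _ ((pv_nh (π := π) hD).conj c hcz a ha) _ ((pv_nh (π := π) hD).conj c hcz b hb)
        have e : c * a * c⁻¹ * (c * b * c⁻¹) * (c * a * c⁻¹)⁻¹ * (c * b * c⁻¹)⁻¹ =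
            c * (a * b * a⁻¹ * b⁻¹) * c⁻¹ := by group
        rw [e] at h3
        exact h3.2
      rintro c v (rfl | rfl | rfl | rfl)
      · rw [map_zero]; exact T.zero_mem
      · rw [hfix]; exact Or.inr (Or.inl rfl)
      · exact hk1 c
      · rw [map_add, hfix]; exact T.add_mem (Or.inr (Or.inl rfl)) (hk1 c)
    have hk0 : k = 0 ∨ k = w := by
      by_contra hcon
      push Not at hcon
      apply C.card_ne_four hTinv
      have h1 := card_eq_pow h T
      have h2 : 2 < Nat.card T := by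
        have hF : Fintype T := Fintype.ofFinite _
        rw [Nat.card_eq_fintype_card, Fintype.two_lt_card_iff]
        exact ⟨⟨k, Or.inr (Or.inr (Or.inl rfl))⟩, ⟨w, Or.inr (Or.inl rfl)⟩, 0,
          fun he => hcon.2 (congrArg Subtype.val he), fun he => hcon.1 (congrArg Subtype.val he),
          fun he => hw0 (congrArg Subtype.val he)⟩
      have h3 : Nat.card T ≤ 4 := by
        have h4 : (T : Set h.V) = {0, w, k, w + k} := by
          ext v; rfl
        have h5 : Nat.card T = Set.ncard ({0, w, k, w + k} : Set h.V) := by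
          rw [← h4]; exact Nat.card_coe_set_eq _
        rw [h5]
        refine (Set.ncard_insert_le _ _).trans ?_
        have h6 := Set.ncard_insert_le w ({k, w + k} : Set h.V)
        have h7 := Set.ncard_insert_le k ({w + k} : Set h.V)
        rw [Set.ncard_singleton] at h7
        omega
      rw [h1] at h2 h3 ⊢
      have h4 : 1 < Module.finrank (ZMod 2) T := by
        by_contra hlt
        have h6 : Module.finrank (ZMod 2) T ≤ 1 := by omega
        have := Nat.pow_le_pow_right (n := 2) (by norm_num) h6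
        omega
      have h5 : Module.finrank (ZMod 2) T < 3 := by
        by_contra hlt
        have h6 : 3 ≤ Module.finrank (ZMod 2) T := by omega
        have := Nat.pow_le_pow_right (n := 2) (by norm_num) h6
        omega
      have h6 : Module.finrank (ZMod 2) T = 2 := by omega
      rw [h6]; norm_num
    exact hgen S₁ ((hS₁ w).2 (Or.inr rfl)) hS₁le ⟨habQ, (hS₁ _).2 hk0⟩
  -- conclusion
  intro x hx y hy t ht
  obtain ⟨hq, h1⟩ := hiii x hx y hy
  set g := x * y * x⁻¹ * y⁻¹ with hg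
  have htz := hD.le t ht.1
  have htu := hi t ht
  rcases (hS₁ _).1 h1 with h2 | h2
  · rcases h.pr_eq_zero.1 h2 with h3 | h3
    · have h4 : g = 1 := h3
      rw [h4, one_mul, mul_one]
    · have h4 : g = z := h3
      rw [h4]; exact htz.symm
  · rw [← huw] at h2
    rcases h.pr_eq_pr.1 h2 with h3 | h3
    · have h4 : g = u := h3
      rw [h4]; exact htu.symm
    · have h4 : g = u * z := h3
      rw [h4, mul_assoc, ← htz, ← mul_assoc, ← htu, mul_assoc]

end Cfsg.Agent.H319
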