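import Cfsg.Agent.H319.VBase

/-!
# Invariant subspaces of `V = Q / ⟨z⟩` in the configuration of S3237 (helper319)

No invariant subspace of order 4; the radical of an invariant subspace of order 8 is spanned by a singular vector.
-/

set_option autoImplicit false

open Subgroup Cfsg.Agent.Co2Type.Quad

namespace Cfsg.Agent.H319

variable {G : Type*} [Group G] {Q : Subgroup G} {z : G} {π : ↥(centralizer ({z} : Set G)) →* S4}

/-- an action on at most three points which is trivial on `Q` is trivial on the preimage of `V4` -/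
theorem Conf.kill (C : Conf Q z π) {X : Type*} [Finite X] (hX : Nat.card X ≤ 3)
    (r : ↥(centralizer ({z} : Set G)) → X → X) (hmul : ∀ a b x, r (a * b) x = r a (r b x))
    (hQ : ∀ c : ↥(centralizer ({z} : Set G)), (c : G) ∈ Q → ∀ x, r c x = x) {y : ↥(centralizer ({z} : Set G))} (hy : π y ∈ V4) (x : X) :
    r y x = x := by
  have h1 : ∀ x, r 1 x = x := hQ 1 Q.one_mem
  let ρ : ↥(centralizer ({z} : Set G)) →* Equiv.Perm X :=
    { toFun := fun a => ⟨r a, r a⁻¹, fun x => by rw [← hmul, inv_mul_cancel, h1],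
        fun x => by rw [← hmul, mul_inv_cancel, h1]⟩
      map_one' := by ext x; exact h1 x
      map_mul' := fun a b => by ext x; exact hmul a b x }
  have hρ : π.ker ≤ ρ.ker := by
    intro c hc
    rw [MonoidHom.mem_ker] at hc ⊢
    ext x
    exact hQ c ((C.ker c).1 hc) x
  let f : S4 →* Equiv.Perm X := (π.liftOfSurjective C.surj) ⟨ρ, hρ⟩
  have hf : ∀ c, f (π c) = ρ c := fun c => MonoidHom.liftOfRightInverse_comp_apply π _ _ ⟨ρ, hρ⟩ c
  have h2 : f (π y) = 1 := V4_le_ker hX f hy
  rw [hf] at h2
  exact congrArg (fun e : Equiv.Perm X => e x) h2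

/-- invariance -/
def Inv (h : Large Q z) (W : Submodule (ZMod 2) h.V) : Prop := ∀ c, ∀ v ∈ W, h.act c v ∈ W

theorem act_mul_apply (h : Large Q z) (a b : ↥(centralizer ({z} : Set G))) (v : h.V) :
    h.act (a * b) v = h.act a (h.act b v) := by
  rw [map_mul]; rfl

theorem act_one_apply (h : Large Q z) (v : h.V) : h.act 1 v = v := by
  rw [map_one]; rfl

/-- the preimage of `V4` acts trivially on an invariant section of order 4 -/
theorem Conf.quart (C : Conf Q z π) {h : Large Q z} {W W' : Submodule (ZMod 2) h.V} (hW : Inv h W)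
    (hW' : Inv h W') (hle : W' ≤ W) (hc : Nat.card W = 4 * Nat.card W')
    {y : ↥(centralizer ({z} : Set G))} (hy : π y ∈ V4) {v : h.V} (hv : v ∈ W) :
    h.act y v + v ∈ W' := by
  classical
  have := C.finiteQ
  let S : Submodule (ZMod 2) W := W'.comap W.subtype
  let R : ↥(centralizer ({z} : Set G)) → (W →ₗ[ZMod 2] W) := fun c =>
    (((h.act c : h.V ≃ₗ[ZMod 2] h.V) : h.V →ₗ[ZMod 2] h.V)).restrict (hW c)
  have hR : ∀ c (w : W), ((R c w : W) : h.V) = h.act c w := fun c w => rfl
  have hS : ∀ c, S ≤ S.comap (R c) := by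
    intro c w hw
    show ((R c w : W) : h.V) ∈ W'
    rw [hR]
    exact hW' c _ hw
  let r' : ↥(centralizer ({z} : Set G)) → (W ⧸ S) → (W ⧸ S) := fun c => Submodule.mapQ S S (R c) (hS c)
  have hr' : ∀ c (w : W), r' c (Submodule.Quotient.mk w) = Submodule.Quotient.mk (R c w) := fun c w => rfl
  have hmul : ∀ a b x, r' (a * b) x = r' a (r' b x) := by
    intro a b x
    obtain ⟨w, rfl⟩ := Submodule.Quotient.mk_surjective S x
    rw [hr', hr', hr']
    congr 1
    apply Subtype.ext
    rw [hR, hR, hR, act_mul_apply]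
  have hQt : ∀ c : ↥(centralizer ({z} : Set G)), (c : G) ∈ Q → ∀ x, r' c x = x := by
    intro c hcQ x
    obtain ⟨w, rfl⟩ := Submodule.Quotient.mk_surjective S x
    rw [hr']
    congr 1
    apply Subtype.ext
    rw [hR, h.act_mem c hcQ]
    rfl
  have hone : ∀ x, r' 1 x = x := hQt 1 Q.one_mem
  have hzero : ∀ c, r' c 0 = 0 := fun c => map_zero (Submodule.mapQ S S (R c) (hS c))
  have hcardS : Nat.card S = Nat.card W' := by
    refine Nat.card_congr ⟨fun s => ⟨((s : W) : h.V), s.2⟩, fun w => ⟨⟨(w : h.V), hle w.2⟩, w.2⟩, ?_, ?_⟩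
    · intro s; rfl
    · intro w; rfl
  have hcq : Nat.card (W ⧸ S) = 4 := by
    have h1 := Submodule.card_eq_card_quotient_mul_card S
    rw [hcardS, hc] at h1
    have h2 : 0 < Nat.card W' := Nat.card_pos
    have h3 : Nat.card W' * 4 = Nat.card W' * Nat.card (W ⧸ S) := by rw [mul_comm]; rw [h1]
    exact (Nat.eq_of_mul_eq_mul_left h2 h3).symm
  have hfin : Finite (W ⧸ S) := Nat.finite_of_card_ne_zero (by rw [hcq]; norm_num)
  let X := {x : W ⧸ S // x ≠ 0}
  have hX : Nat.card X ≤ 3 := by
    have hF : Fintype (W ⧸ S) := Fintype.ofFinite _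
    have h1 : Nat.card X = Nat.card (W ⧸ S) - 1 := by
      rw [Nat.card_eq_fintype_card, Nat.card_eq_fintype_card, Fintype.card_subtype_compl,
        Fintype.card_subtype_eq]
    rw [h1, hcq]
  let r : ↥(centralizer ({z} : Set G)) → X → X := fun c x => ⟨r' c x, by
    intro he
    apply x.2
    have h1 : r' c⁻¹ (r' c x) = x := by rw [← hmul, inv_mul_cancel, hone]
    rw [← h1, he, hzero]⟩
  have hkill := C.kill (X := X) hX r (fun a b x => Subtype.ext (hmul a b x))
    (fun c hc x => Subtype.ext (hQt c hc x)) hy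
  by_cases h0 : (Submodule.Quotient.mk (⟨v, hv⟩ : W) : W ⧸ S) = 0
  · have h1 : v ∈ W' := (Submodule.Quotient.mk_eq_zero S).1 h0
    exact W'.add_mem (hW' y v h1) h1
  · have h1 := congrArg Subtype.val (hkill ⟨_, h0⟩)
    have h2 : (Submodule.Quotient.mk (R y ⟨v, hv⟩) : W ⧸ S) = Submodule.Quotient.mk ⟨v, hv⟩ := h1
    rw [Submodule.Quotient.eq] at h2
    have h3 : h.act y v - v ∈ W' := h2
    rwa [sub_eq_add_neg, h.neg_eq] at h3

/-- the orthogonal complement -/
noncomputable def perp (h : Large Q z) (W : Submodule (ZMod 2) h.V) : Submodule (ZMod 2) h.V := h.b.orthogonal W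

theorem mem_perp (h : Large Q z) {W : Submodule (ZMod 2) h.V} {v : h.V} : v ∈ perp h W ↔ ∀ w ∈ W, h.b w v = 0 :=
  Iff.rfl

theorem card_eq_pow (h : Large Q z) [Finite Q] (W : Submodule (ZMod 2) h.V) :
    Nat.card W = 2 ^ Module.finrank (ZMod 2) W := by
  have h1 := Module.natCard_eq_pow_finrank (K := ZMod 2) (V := W)
  rwa [Nat.card_zmod] at h1

theorem Conf.card_perp (C : Conf Q z π) {h : Large Q z} (W : Submodule (ZMod 2) h.V) :
    Nat.card W * Nat.card (perp h W) = 16 := by
  have := C.finiteQ
  have hnd : h.b.Nondegenerate := by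
    rw [LinearMap.BilinForm.Nondegenerate]
    refine ⟨fun v hv => h.b_nondeg hv, fun v hv => h.b_nondeg fun w => by rw [h.b_comm]; exact hv w⟩
  have hrefl : h.b.IsRefl := fun v w hvw => by rw [h.b_comm]; exact hvw
  have hfd : FiniteDimensional (ZMod 2) h.V := Module.Finite.of_finite
  have h1 := LinearMap.BilinForm.finrank_orthogonal hnd W
  have h2 := Submodule.finrank_le W
  have h3 : Nat.card h.V = 2 ^ Module.finrank (ZMod 2) h.V := by
    have h1 := Module.natCard_eq_pow_finrank (K := ZMod 2) (V := h.V)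
    rwa [Nat.card_zmod] at h1
  rw [card_eq_pow h W, card_eq_pow h (perp h W)]
  show 2 ^ _ * 2 ^ Module.finrank (ZMod 2) (h.b.orthogonal W) = 16
  rw [h1, ← pow_add, Nat.add_sub_cancel' h2, ← h3]
  exact C.card_V

theorem inv_perp {h : Large Q z} {W : Submodule (ZMod 2) h.V} (hW : Inv h W) : Inv h (perp h W) := by
  intro c v hv w hw
  have h1 := hv (h.act c⁻¹ w) (hW c⁻¹ w hw)
  have h2 := h.b_act c (h.act c⁻¹ w) v
  rw [← act_mul_apply, mul_inv_cancel, act_one_apply] at h2
  show h.b w (h.act c v) = 0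
  rw [h2]; exact h1

theorem four_elems {V : Type*} [AddCommGroup V] [Module (ZMod 2) V] (W : Submodule (ZMod 2) V) (hW : Nat.card W = 4)
    {a c : V} (ha : a ∈ W) (hc : c ∈ W) (ha0 : a ≠ 0) (hc0 : c ≠ 0) (hac : a ≠ c) {w : V} (hw : w ∈ W) :
    w = 0 ∨ w = a ∨ w = c ∨ w = a + c := by
  classical
  have hfin : Finite W := Nat.finite_of_card_ne_zero (by rw [hW]; norm_num)
  have hF : Fintype W := Fintype.ofFinite _
  rw [Nat.card_eq_fintype_card] at hW
  have haa : a + a = 0 := by
    have : (2 : ZMod 2) • a = 0 := by rw [show (2 : ZMod 2) = 0 from rfl, zero_smul]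
    rwa [two_smul] at this
  have hacne : a + c ≠ 0 := by
    intro h
    apply hac
    have : a + a = a + c := by rw [haa, h]
    exact add_left_cancel this
  have h1 : a + c ≠ a := fun h => hc0 (add_eq_left.1 h)
  have h2 : a + c ≠ c := fun h => ha0 (add_eq_right.1 h)
  let A : Finset W := {⟨0, W.zero_mem⟩, ⟨a, ha⟩, ⟨c, hc⟩, ⟨a + c, W.add_mem ha hc⟩}
  have hA : A.card = 4 := by
    refine Finset.card_eq_of_equiv_fin ?_ |>.trans rfl |> fun h => h
    exact (Finset.equivFinOfCardEq (by
      rw [Finset.card_insert_of_notMem, Finset.card_insert_of_notMem, Finset.card_insert_of_notMem,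
        Finset.card_singleton]
      · simp only [Finset.mem_singleton, Subtype.mk.injEq]
        exact fun h => h2 h.symm
      · simp only [Finset.mem_insert, Finset.mem_singleton, Subtype.mk.injEq, not_or]
        exact ⟨hac, fun h => h1 h.symm⟩
      · simp only [Finset.mem_insert, Finset.mem_singleton, Subtype.mk.injEq, not_or]
        exact ⟨fun h => ha0 h.symm, fun h => hc0 h.symm, fun h => hacne h.symm⟩))
  have hu : A = Finset.univ := Finset.eq_univ_of_card A (by rw [hA, hW])
  have : (⟨w, hw⟩ : W) ∈ A := by rw [hu]; exact Finset.mem_univ _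
  simp only [A, Finset.mem_insert, Finset.mem_singleton, Subtype.mk.injEq] at this
  exact this

/-- elements of `Y` outside `Q` -/
theorem Conf.exists_Y (C : Conf Q z π) : ∃ y₁ y₂ : ↥(centralizer ({z} : Set G)), π y₁ ∈ V4 ∧ π y₂ ∈ V4 ∧
    π y₁ ≠ 1 ∧ π y₂ ≠ 1 ∧ π y₁ ≠ π y₂ := by
  have h : ∃ a b : S4, inV a = true ∧ inV b = true ∧ a ≠ 1 ∧ b ≠ 1 ∧ a ≠ b := by decide +kernel
  obtain ⟨a, b, ha, hb, h1, h2, h3⟩ := h
  obtain ⟨y₁, rfl⟩ := C.surj a
  obtain ⟨y₂, rfl⟩ := C.surj b
  exact ⟨y₁, y₂, ha, hb, h1, h2, h3⟩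

/-- **F2**: no invariant subspace of order 4 -/
theorem Conf.card_ne_four (C : Conf Q z π) {h : Large Q z} {W : Submodule (ZMod 2) h.V} (hW : Inv h W) :
    Nat.card W ≠ 4 := by
  classical
  intro h4
  have := C.finiteQ
  have hpc : Nat.card (perp h W) = 4 := by
    have := C.card_perp W
    rw [h4] at this
    omega
  have hbot : Nat.card (⊥ : Submodule (ZMod 2) h.V) = 1 := by
    rw [Nat.card_eq_one_iff_unique]
    exact ⟨inferInstance, ⟨0⟩⟩
  have hinvbot : Inv h (⊥ : Submodule (ZMod 2) h.V) := by
    intro c v hv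
    rw [Submodule.mem_bot] at hv ⊢
    rw [hv, map_zero]
  have htriv : ∀ W' : Submodule (ZMod 2) h.V, Inv h W' → Nat.card W' = 4 →
      ∀ y, π y ∈ V4 → ∀ v ∈ W', h.act y v = v := by
    intro W' hW' hc y hy v hv
    have h1 := C.quart hW' hinvbot bot_le (by rw [hc, hbot]) hy hv
    rw [Submodule.mem_bot] at h1
    rw [← sub_eq_zero, sub_eq_add_neg, h.neg_eq]; exact h1
  obtain ⟨y₁, y₂, hy₁, -, hy1, -, -⟩ := C.exists_Y
  by_cases hiso : ∀ a ∈ W, ∀ c ∈ W, h.b a c = 0
  · -- totally isotropic
    have hWp : W = perp h W := by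
      have hle : W ≤ perp h W := fun v hv w hw => hiso w hw v hv
      have hF : (W : Set h.V).Finite := Set.toFinite _
      apply SetLike.coe_injective
      apply Set.eq_of_subset_of_ncard_le hle
      · rw [← Nat.card_coe_set_eq, ← Nat.card_coe_set_eq]
        exact (hpc.trans h4.symm).le
    have hq : ∃ a ∈ W, h.q a = 1 := by
      by_contra hc
      push Not at hc
      have h0 : ∀ a ∈ W, h.q a = 0 := by
        intro a ha
        have : ∀ t : ZMod 2, t ≠ 1 → t = 0 := by decide
        exact this _ (hc a ha)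
      let A : Subgroup G :=
        { carrier := {x | ∃ hx : x ∈ Q, h.pr ⟨x, hx⟩ ∈ W}
          mul_mem' := by
            rintro x y ⟨hx, hx1⟩ ⟨hy, hy1⟩
            exact ⟨Q.mul_mem hx hy, W.add_mem hx1 hy1⟩
          one_mem' := ⟨Q.one_mem, by
            have : h.pr ⟨1, Q.one_mem⟩ = 0 := h.pr_one
            rw [this]; exact W.zero_mem⟩
          inv_mem' := by
            rintro x ⟨hx, hx1⟩
            exact ⟨Q.inv_mem hx, W.neg_mem hx1⟩ }
      have hAQ : A ≤ Q := fun x hx => hx.1
      have hzA : z ∈ A := ⟨h.z_mem, by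
        have : h.pr ⟨z, h.z_mem⟩ = 0 := h.pr_eq_zero.2 (Or.inr rfl)
        rw [this]; exact W.zero_mem⟩
      have hWA : WN h A = W := by
        ext v
        constructor
        · rintro ⟨x, ⟨hx, hx1⟩, rfl⟩
          exact hx1
        · intro hv
          obtain ⟨x, rfl⟩ := h.pr_surjective v
          exact ⟨x, ⟨x.2, hv⟩, rfl⟩
      refine C.minus A hAQ ?_ ?_
      · rintro a ⟨ha, ha1⟩
        exact (h.q_eq_zero (x := ⟨a, ha⟩)).1 (h0 _ ha1)
      · have h1 := card_WN h hzA
        rw [hWA, h4, inf_eq_left.2 hAQ] at h1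
        exact h1
    obtain ⟨a, ha, hqa⟩ := hq
    have ha0 : a ≠ 0 := by
      rintro rfl
      rw [h.q_zero] at hqa
      exact zero_ne_one hqa
    -- the singular vector
    obtain ⟨w, hw, hw0, hwa, hqw⟩ : ∃ w ∈ W, w ≠ 0 ∧ w ≠ a ∧ h.q w = 0 := by
      obtain ⟨c, hc, hc0, hca⟩ : ∃ c ∈ W, c ≠ 0 ∧ c ≠ a := by
        by_contra hcon
        push Not at hcon
        have : Nat.card W ≤ 2 := by
          have hF : Fintype W := Fintype.ofFinite _
          by_contra h5
          push Not at h5
          rw [Nat.card_eq_fintype_card, Fintype.two_lt_card_iff] at h5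
          obtain ⟨u, v, t, huv, hut, hvt⟩ := h5
          have hcase : ∀ s : W, s = 0 ∨ (s : h.V) = a := by
            intro s
            by_cases hs : (s : h.V) = 0
            · left; exact Subtype.ext hs
            · right; exact hcon s s.2 hs
          rcases hcase u with h6 | h6 <;> rcases hcase v with h7 | h7 <;> rcases hcase t with h8 | h8
          · exact huv (h6.trans h7.symm)
          · exact huv (h6.trans h7.symm)
          · exact hut (h6.trans h8.symm)
          · exact hvt (Subtype.ext (h7.trans h8.symm))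
          · exact hvt (h7.trans h8.symm)
          · exact hut (Subtype.ext (h6.trans h8.symm))
          · exact huv (Subtype.ext (h6.trans h7.symm))
          · exact huv (Subtype.ext (h6.trans h7.symm))
        omega
      by_cases hqc : h.q c = 0
      · exact ⟨c, hc, hc0, hca, hqc⟩
      · refine ⟨a + c, W.add_mem ha hc, ?_, ?_, ?_⟩
        · intro he
          apply hca
          have : a + a = a + c := by rw [h.add_self, he]
          exact (add_left_cancel this).symm
        · intro he; exact hc0 (add_eq_left.1 he)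
        · rw [h.q_add', hqa, hiso a ha c hc]
          have : ∀ t : ZMod 2, t ≠ 0 → 1 + t + 0 = 0 := by decide
          exact this _ hqc
    have hall : ∀ v ∈ W, v = 0 ∨ v = a ∨ v = w ∨ v = a + w :=
      fun v hv => four_elems W h4 ha hw ha0 hw0 (Ne.symm hwa) hv
    have hqaw : h.q (a + w) = 1 := by rw [h.q_add', hqa, hqw, hiso a ha w hw]; decide
    have hfixw : ∀ c, h.act c w = w := by
      intro c
      have h1 := h.q_act c w
      have h0 : h.act c w ≠ 0 := fun he => hw0 ((map_eq_zero_iff _ (h.act c).injective).1 he)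
      rcases hall _ (hW c w hw) with h2 | h2 | h2 | h2
      · exact absurd h2 h0
      · rw [h2, hqa, hqw] at h1; exact absurd h1 one_ne_zero
      · exact h2
      · rw [h2, hqaw, hqw] at h1; exact absurd h1 one_ne_zero
    have hfixa : ∀ c, h.act (c * c) a = a := by
      intro c
      rw [act_mul_apply]
      have h1 := h.q_act c a
      rcases hall _ (hW c a ha) with h2 | h2 | h2 | h2
      · exact absurd h2 fun he => ha0 ((map_eq_zero_iff _ (h.act c).injective).1 he)
      · rw [h2, h2]
      · rw [h2, hqw, hqa] at h1; exact absurd h1.symm one_ne_zero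
      · rw [h2, map_add, h2, hfixw, add_assoc, h.add_self, add_zero]
    have hfixW : ∀ c, ∀ v ∈ W, h.act (c * c) v = v := by
      intro c v hv
      rcases hall v hv with rfl | rfl | rfl | rfl
      · exact map_zero _
      · exact hfixa c
      · exact hfixw _
      · rw [map_add, hfixa, hfixw]
    have hfour : ∀ c v, h.act (c * c * (c * c)) v = v := by
      intro c v
      have hmem : h.act (c * c) v + v ∈ W := by
        rw [hWp]
        intro u hu
        have h1 := h.b_act (c * c) u v
        rw [hfixW c u hu] at h1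
        show h.b u (h.act (c * c) v + v) = 0
        rw [map_add, h1]
        have : ∀ t : ZMod 2, t + t = 0 := by decide
        exact this _
      have h1 := hfixW c _ hmem
      rw [map_add, ← act_mul_apply] at h1
      exact add_right_cancel (b := h.act (c * c) v) (by rw [h1, add_comm])
    obtain ⟨g, hg1, -, hg3⟩ := exists_three
    obtain ⟨c, rfl⟩ := C.surj g
    have h1 := C.pi_eq_one (hfour c)
    rw [map_mul, map_mul] at h1
    apply hg1
    have h2 : π c * π c * (π c * π c) = (π c * π c * π c) * π c := by group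
    rw [h2, hg3, one_mul] at h1
    exact h1
  · -- nondegenerate
    push Not at hiso
    obtain ⟨a, ha, c, hc, hac⟩ := hiso
    have hb1 : h.b a c = 1 := by
      have : ∀ t : ZMod 2, t ≠ 0 → t = 1 := by decide
      exact this _ hac
    have ha0 : a ≠ 0 := by rintro rfl; apply hac; rw [map_zero]; rfl
    have hc0 : c ≠ 0 := by rintro rfl; apply hac; exact map_zero _
    have hne : a ≠ c := by rintro rfl; exact hac (h.b_self a)
    have hca : h.b c a = 1 := by rw [h.b_comm]; exact hb1
    have hall : ∀ v ∈ W, v = 0 ∨ v = a ∨ v = c ∨ v = a + c :=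
      fun v hv => four_elems W h4 ha hc ha0 hc0 hne hv
    apply hy1
    apply C.pi_eq_one
    intro v
    have hp : h.b c v • a + h.b a v • c ∈ W := W.add_mem (W.smul_mem _ ha) (W.smul_mem _ hc)
    have hq : v + (h.b c v • a + h.b a v • c) ∈ perp h W := by
      have e1 : h.b a (v + (h.b c v • a + h.b a v • c)) = 0 := by
        rw [map_add, map_add, map_smul, map_smul, h.b_self, hb1]
        show h.b a v + (h.b c v * 0 + h.b a v * 1) = 0
        rw [mul_zero, zero_add, mul_one]
        have : ∀ t : ZMod 2, t + t = 0 := by decide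
        exact this _
      have e2 : h.b c (v + (h.b c v • a + h.b a v • c)) = 0 := by
        rw [map_add, map_add, map_smul, map_smul, h.b_self, hca]
        show h.b c v + (h.b c v * 1 + h.b a v * 0) = 0
        rw [mul_zero, add_zero, mul_one]
        have : ∀ t : ZMod 2, t + t = 0 := by decide
        exact this _
      intro u hu
      rcases hall u hu with rfl | rfl | rfl | rfl
      · show h.b 0 _ = 0
        rw [map_zero]; rfl
      · exact e1
      · exact e2
      · show h.b (a + c) _ = 0
        have : h.b (a + c) (v + (h.b c v • a + h.b a v • c)) =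
            h.b a (v + (h.b c v • a + h.b a v • c)) + h.b c (v + (h.b c v • a + h.b a v • c)) := by
          rw [map_add h.b a c]; rfl
        rw [this, e1, e2, add_zero]
    have h1 := htriv W hW h4 y₁ hy₁ _ hp
    have h2 := htriv _ (inv_perp hW) hpc y₁ hy₁ _ hq
    rw [map_add, h1] at h2
    exact add_right_cancel h2

end Cfsg.Agent.H319
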