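import Cfsg.Agent.H319.VDim

/-!
# Normal subgroups of `C_G(z)` in the configuration of S3237 (helper319)
-/

set_option autoImplicit false

open Subgroup Cfsg.Agent.Co2Type.Quad

namespace Cfsg.Agent.H319

variable {G : Type*} [Group G] {Q : Subgroup G} {z : G} {π : ↥(centralizer ({z} : Set G)) →* S4}

theorem zz : ∀ t : ZMod 2, t + t = 0 := by decide

theorem inv_WN (h : Large Q z) {N : Subgroup G} (hN : NH z N) : Inv h (WN h N) :=
  fun c _ hv => act_mem_WN h hN c hv

/-- **F3**: an invariant hyperplane is `w^⊥` with `w` singular. -/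
theorem Conf.exists_w (C : Conf Q z π) {h : Large Q z} {W : Submodule (ZMod 2) h.V} (hW : Inv h W)
    (h8 : Nat.card W = 8) : ∃ w : h.V, w ≠ 0 ∧ w ∈ W ∧ h.q w = 0 ∧ (∀ v, v ∈ W ↔ h.b w v = 0) ∧
      ∀ c, h.act c w = w := by
  classical
  have := C.finiteQ
  have hpc : Nat.card (perp h W) = 2 := by
    have := C.card_perp W
    rw [h8] at this
    omega
  obtain ⟨w, hw, hw0⟩ : ∃ w ∈ perp h W, w ≠ 0 := by
    by_contra hc
    push Not at hc
    have : Subsingleton (perp h W) := ⟨fun a b => Subtype.ext (by rw [hc a a.2, hc b b.2])⟩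
    have : Nat.card (perp h W) ≤ 1 := Finite.card_le_one_iff_subsingleton.2 this
    omega
  have hall : ∀ v ∈ perp h W, v = 0 ∨ v = w := by
    intro v hv
    by_contra hc
    push Not at hc
    have hF : Fintype (perp h W) := Fintype.ofFinite _
    have : 2 < Nat.card (perp h W) := by
      rw [Nat.card_eq_fintype_card, Fintype.two_lt_card_iff]
      exact ⟨⟨v, hv⟩, ⟨w, hw⟩, 0, fun he => hc.2 (congrArg Subtype.val he),
        fun he => hc.1 (congrArg Subtype.val he), fun he => hw0 (congrArg Subtype.val he)⟩
    omega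
  have hfix : ∀ c, h.act c w = w := by
    intro c
    rcases hall _ (inv_perp hW c w hw) with h1 | h1
    · exact absurd ((map_eq_zero_iff _ (h.act c).injective).1 h1) hw0
    · exact h1
  have hiff : ∀ v, v ∈ W ↔ h.b w v = 0 := by
    have hle : W ≤ (LinearMap.ker (h.b w)) := fun v hv => by
      have : h.b v w = 0 := hw v hv
      rw [LinearMap.mem_ker, h.b_comm]; exact this
    have hne : (LinearMap.ker (h.b w)) ≠ ⊤ := by
      intro he
      apply hw0
      apply h.b_nondeg
      intro v
      have : v ∈ LinearMap.ker (h.b w) := by rw [he]; trivial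
      exact this
    have hcard : Nat.card W = Nat.card (LinearMap.ker (h.b w)) := by
      have h1 := card_eq_pow h (LinearMap.ker (h.b w))
      have h2 := Nat.card_le_card_of_injective (Submodule.inclusion hle) (Submodule.inclusion_injective hle)
      have h3 : Nat.card (LinearMap.ker (h.b w)) < 16 := by
        rw [← C.card_V]
        rcases Nat.lt_or_ge (Nat.card (LinearMap.ker (h.b w))) (Nat.card h.V) with h4 | h4
        · exact h4
        · exfalso
          apply hne
          rw [eq_top_iff]
          intro v _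
          have h5 := Set.eq_of_subset_of_ncard_le (Set.subset_univ ((LinearMap.ker (h.b w) : Submodule _ _) : Set h.V))
            (by rw [Set.ncard_univ, ← Nat.card_coe_set_eq]; exact h4) (Set.toFinite _)
          have : v ∈ ((LinearMap.ker (h.b w) : Submodule _ _) : Set h.V) := by rw [h5]; trivial
          exact this
      rw [h8] at h2 ⊢
      rw [h1] at h2 h3 ⊢
      have h5 : 3 ≤ Module.finrank (ZMod 2) (LinearMap.ker (h.b w)) := by
        by_contra hlt
        have h6 : Module.finrank (ZMod 2) (LinearMap.ker (h.b w)) ≤ 2 := by omega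
        have := Nat.pow_le_pow_right (n := 2) (by norm_num) h6
        omega
      have h6 : Module.finrank (ZMod 2) (LinearMap.ker (h.b w)) < 4 := by
        by_contra hlt
        have h6 : 4 ≤ Module.finrank (ZMod 2) (LinearMap.ker (h.b w)) := by omega
        have := Nat.pow_le_pow_right (n := 2) (by norm_num) h6
        omega
      have h7 : Module.finrank (ZMod 2) (LinearMap.ker (h.b w)) = 3 := by omega
      rw [h7]; norm_num
    have heq : (W : Set h.V) = (LinearMap.ker (h.b w) : Submodule _ _) := by
      apply Set.eq_of_subset_of_ncard_le hle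
      · rw [← Nat.card_coe_set_eq, ← Nat.card_coe_set_eq]
        exact hcard.symm.le
    intro v
    have : v ∈ (W : Set h.V) ↔ v ∈ ((LinearMap.ker (h.b w) : Submodule _ _) : Set h.V) := by rw [heq]
    exact this
  have hwW : w ∈ W := (hiff w).2 (h.b_self w)
  refine ⟨w, hw0, hwW, ?_, hiff, hfix⟩
  by_contra hq
  have hq1 : h.q w = 1 := by
    have : ∀ t : ZMod 2, t ≠ 0 → t = 1 := by decide
    exact this _ hq
  have hinvp : Inv h (perp h W) := inv_perp hW
  have hple : perp h W ≤ W := fun v hv => by
    rcases hall v hv with rfl | rfl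
    · exact W.zero_mem
    · exact hwW
  -- the preimage of `V4` acts trivially on `W`
  have htriv : ∀ y, π y ∈ V4 → ∀ v ∈ W, h.act y v = v := by
    intro y hy v hv
    have h1 := C.quart hW hinvp hple (by rw [h8, hpc]) hy hv
    rcases hall _ h1 with h2 | h2
    · rw [← sub_eq_zero, sub_eq_add_neg, h.neg_eq]; exact h2
    · exfalso
      have h3 : h.act y v = w + v := by
        rw [← h2, add_assoc, h.add_self, add_zero]
      have h4 := h.q_act y v
      rw [h3, h.q_add', hq1, (hiff v).1 hv, add_zero] at h4
      have : ∀ t : ZMod 2, 1 + t ≠ t := by decide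
      exact this _ h4
  have htv : ∀ y, π y ∈ V4 → π y ≠ 1 → ∀ v, v ∉ W → h.act y v = v + w := by
    intro y hy hy1
    by_contra hc
    push Not at hc
    obtain ⟨v, hv, hne⟩ := hc
    -- `y` fixes `v`, and `V = W ∪ (v + W)`
    have hmem : ∀ u, h.act y u + u ∈ perp h W := by
      intro u t ht
      have h1 := h.b_act y t u
      rw [htriv y hy t ht] at h1
      rw [map_add, h1]
      exact zz _
    have hfv : h.act y v = v := by
      rcases hall _ (hmem v) with h1 | h1
      · rw [← sub_eq_zero, sub_eq_add_neg, h.neg_eq]; exact h1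
      · exfalso; apply hne
        rw [← h1, add_comm (h.act y v) v, ← add_assoc, h.add_self, zero_add]
    apply hy1
    apply C.pi_eq_one
    intro u
    by_cases hu : u ∈ W
    · exact htriv y hy u hu
    · have h1 : u + v ∈ W := by
        rw [hiff] at hu hv ⊢
        rw [map_add]
        have : ∀ a b : ZMod 2, a ≠ 0 → b ≠ 0 → a + b = 0 := by decide
        exact this _ _ hu hv
      have h2 := htriv y hy _ h1
      rw [map_add, hfv] at h2
      exact add_right_cancel h2
  obtain ⟨y₁, y₂, hy₁, hy₂, h1, h2, h12⟩ := C.exists_Y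
  apply h12
  have : π (y₁⁻¹ * y₂) = 1 := by
    apply C.pi_eq_one
    intro v
    rw [act_mul_apply]
    have h3 : h.act y₂ v = h.act y₁ v := by
      by_cases hv : v ∈ W
      · rw [htriv _ hy₁ v hv, htriv _ hy₂ v hv]
      · rw [htv _ hy₁ h1 v hv, htv _ hy₂ h2 v hv]
    rw [h3, ← act_mul_apply, inv_mul_cancel, act_one_apply]
  rw [map_mul, map_inv, inv_mul_eq_one] at this
  exact this

/-- the possible orders of `N ∩ Q` -/
theorem Conf.card_inf (C : Conf Q z π) {N : Subgroup G} (hN : NH z N) :
    Nat.card (N ⊓ Q : Subgroup G) ≤ 4 ∨ Nat.card (WN C.large N) = 8 ∧ Nat.card (N ⊓ Q : Subgroup G) = 16 ∨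
      Q ≤ N := by
  classical
  have := C.finiteQ
  by_cases hb : N = ⊥
  · left
    rw [hb, bot_inf_eq, Subgroup.card_bot]; norm_num
  have hz := z_mem C.large hN hb
  have h1 := card_WN C.large hz
  have h2 := card_eq_pow C.large (WN C.large N)
  have h3 := C.card_ne_four (inv_WN C.large hN)
  have h4 : Nat.card (WN C.large N) ≤ 16 := by
    rw [← C.card_V]
    exact Nat.card_le_card_of_injective _ Subtype.val_injective
  rcases Nat.lt_or_ge (Module.finrank (ZMod 2) (WN C.large N)) 5 with h5 | h5
  · interval_cases h6 : Module.finrank (ZMod 2) (WN C.large N)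
    · left; omega
    · left; omega
    · omega
    · right; left; constructor <;> omega
    · right; right
      have h7 : Nat.card (N ⊓ Q : Subgroup G) = Nat.card Q := by rw [h1, h2, C.card]; norm_num
      have h8 : (N ⊓ Q : Subgroup G) = Q :=
        Subgroup.eq_of_le_of_card_ge inf_le_right h7.symm.le
      exact inf_eq_right.1 h8
  · have := Nat.pow_le_pow_right (n := 2) (by norm_num) h5
    omega

/-- the common part: isotropic image is small -/
theorem Conf.not_isotropic (C : Conf Q z π) {h : Large Q z} {W : Submodule (ZMod 2) h.V}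
    (h8 : 8 ≤ Nat.card W) : ∃ a ∈ W, ∃ c ∈ W, h.b a c ≠ 0 := by
  by_contra hc
  push Not at hc
  have := C.finiteQ
  have h1 := C.card_perp W
  have hle : W ≤ perp h W := fun v hv w hw => hc w hw v hv
  have h2 := Nat.card_le_card_of_injective (Submodule.inclusion hle) (Submodule.inclusion_injective hle)
  nlinarith

/-- **F5**: an abelian normal subgroup of `C(z)` has order at most 4 -/
theorem Conf.card_le_of_comm (C : Conf Q z π) {N : Subgroup G} (hN : NH z N)
    (hab : ∀ a ∈ N, ∀ c ∈ N, a * c = c * a) : Nat.card N ≤ 4 ∧ N ≤ Q := by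
  have := C.finiteQ
  have key : Nat.card (N ⊓ Q : Subgroup G) ≤ 4 := by
    by_contra hlt
    push Not at hlt
    have hb : N ≠ ⊥ := by
      rintro rfl
      rw [bot_inf_eq, Subgroup.card_bot] at hlt
      omega
    have hz := z_mem C.large hN hb
    have h1 := card_WN C.large hz
    have h8 : 8 ≤ Nat.card (WN C.large N) := by
      rcases C.card_inf hN with h2 | h2 | h2
      · omega
      · exact h2.1.ge
      · rw [inf_eq_right.2 h2, C.card] at h1
        omega
    obtain ⟨a, ⟨x, hx, rfl⟩, c, ⟨y, hy, rfl⟩, hne⟩ := C.not_isotropic h8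
    apply hne
    rw [C.large.b_pr]
    exact hab x hx y hy
  have hle := C.le_of_card_le hN key
  rw [inf_eq_left.2 hle] at key
  exact ⟨key, hle⟩

end Cfsg.Agent.H319
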